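import Mathlib

/-!
# Roots of unity in a finite field (team piece S2480-MU)
-/

set_option autoImplicit false

namespace Cfsg.Agent.H80.PSLk

theorem card_pow_eq_one_eq_gcd {F : Type*} [Field F] [Fintype F] (n : ℕ) (hn : 1 ≤ n)
    (μ : Finset Fˣ) (hμ : ∀ ζ : Fˣ, ζ ∈ μ ↔ ζ ^ n = 1) :
    μ.card = Nat.gcd n (Fintype.card F - 1) := by
  classical
  have h1 := IsCyclic.card_powMonoidHom_ker (G := Fˣ) n
  have h2 : Nat.card Fˣ = Fintype.card F - 1 := by
    rw [Nat.card_eq_fintype_card, Fintype.card_units]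
  rw [h2] at h1
  rw [Nat.gcd_comm, ← h1, ← Nat.card_eq_finsetCard]
  apply Nat.card_congr
  refine Equiv.subtypeEquivRight fun ζ => ?_
  rw [hμ, MonoidHom.mem_ker, powMonoidHom_apply]

theorem card_orderOf_le_totient {F : Type*} [Field F] [Fintype F] (m : ℕ)
    (s : Finset Fˣ) (hs : ∀ ζ ∈ s, orderOf ζ = m) : s.card ≤ Nat.totient m := by
  classical
  by_cases hm : m ∣ Fintype.card Fˣ
  · rw [← IsCyclic.card_orderOf_eq_totient hm]
    apply Finset.card_le_card
    intro ζ hζ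
    simp [hs ζ hζ]
  · have hempty : s = ∅ := by
      apply Finset.eq_empty_of_forall_notMem
      intro ζ hζ
      apply hm
      rw [← hs ζ hζ]
      exact orderOf_dvd_card
    simp [hempty]

example {F : Type*} [Field F] [Fintype F] (n : ℕ) (hn : 1 ≤ n)
    (μ : Finset Fˣ) (hμ : ∀ ζ : Fˣ, ζ ∈ μ ↔ ζ ^ n = 1) :
    μ.card = Nat.gcd n (Fintype.card F - 1) := card_pow_eq_one_eq_gcd n hn μ hμ

example {F : Type*} [Field F] [Fintype F] (m : ℕ)
    (s : Finset Fˣ) (hs : ∀ ζ ∈ s, orderOf ζ = m) : s.card ≤ Nat.totient m :=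
  card_orderOf_le_totient m s hs

end Cfsg.Agent.H80.PSLk
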