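import Mathlib
import Cfsg.Prelude.Def_Blocks
import Cfsg.Agent.H2.CensusStmts
import Cfsg.Agent.H80.M11InvVal
import Cfsg.Agent.H81.Reg
import Cfsg.Agent.H82.Irr
import Cfsg.Agent.H83.SkewParity

/-!
# A non-cyclic simple group has no irreducible character of degree 2 (team piece S0983-BG1)
-/

set_option autoImplicit false
set_option linter.style.haveILetI false

namespace Cfsg.Agent.H80.Census

open Subgroup
open scoped ComplexConjugate

universe u

/-- An idempotent complex matrix of trace `0` is `0`. -/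
theorem idem_eq_zero_of_trace {N : ℕ} (E : Matrix (Fin N) (Fin N) ℂ) (hEE : E * E = E)
    (htr : E.trace = 0) : E = 0 := by
  obtain ⟨m, P, Q, hPQ, hQP⟩ := Cfsg.Agent.H83.exists_idem_factorization E hEE
  have h1 : E.trace = (m : ℂ) := by
    rw [← hPQ, Matrix.trace_mul_comm, hQP, Matrix.trace_one, Fintype.card_fin]
  rw [htr] at h1
  have hm : m = 0 := by exact_mod_cast h1.symm
  subst hm
  rw [← hPQ]
  ext i j
  simp [Matrix.mul_apply]

/-- A complex matrix with `M * M = 1` and trace `-N` is `-1`. -/
theorem invol_eq_neg_one_of_trace {N : ℕ} (M : Matrix (Fin N) (Fin N) ℂ) (hMM : M * M = 1)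
    (htr : M.trace = -(N : ℂ)) : M = -1 := by
  have hEE : ((1 / 2 : ℂ) • (1 + M)) * ((1 / 2 : ℂ) • (1 + M)) = (1 / 2 : ℂ) • (1 + M) := by
    rw [smul_mul_smul_comm, add_mul, mul_add, mul_add, hMM, mul_one, one_mul, mul_one]
    rw [show (1 : Matrix (Fin N) (Fin N) ℂ) + M + (M + 1) = (2 : ℂ) • (1 + M) by
      rw [two_smul]; abel, smul_smul]
    norm_num
  have h0 : ((1 / 2 : ℂ) • (1 + M)).trace = 0 := by
    rw [Matrix.trace_smul, Matrix.trace_add, Matrix.trace_one, Fintype.card_fin, htr]
    simp
  have h1 := idem_eq_zero_of_trace _ hEE h0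
  have h2 : (1 : Matrix (Fin N) (Fin N) ℂ) + M = 0 := by
    have := congrArg (fun X => (2 : ℂ) • X) h1
    simpa [smul_smul] using this
  exact eq_neg_of_add_eq_zero_right h2

theorem noDegTwo : Cfsg.Agent.H2.Census.StmtNoDegTwo.{u} := by
  intro G _ _ _ hcyc χ hdeg
  classical
  haveI : Fintype G := Fintype.ofFinite G
  -- `G` is not commutative
  have hnc : ¬ ∀ a b : G, a * b = b * a := by
    intro hc
    letI : CommGroup G := { ‹Group G› with mul_comm := hc }
    exact hcyc inferInstance
  -- `G` is perfect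
  have hperf : ∀ (φ : G →* ℂˣ) (g : G), φ g = 1 := by
    intro φ g
    have hn : φ.ker.Normal := inferInstance
    rcases hn.eq_bot_or_eq_top with h | h
    · exfalso
      apply hnc
      intro a b
      have h1 : φ (a * b) = φ (b * a) := by rw [map_mul, map_mul, mul_comm]
      exact (MonoidHom.ker_eq_bot_iff φ).mp h h1
    · have h1 : g ∈ φ.ker := h ▸ Subgroup.mem_top g
      exact h1
  -- an involution
  have hdvd : 2 ∣ Nat.card G := by
    have := Cfsg.Agent.H81.irr_charDegree_dvd χ
    rwa [hdeg] at this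
  haveI : Fact (Nat.Prime 2) := ⟨Nat.prime_two⟩
  obtain ⟨t, ht⟩ := exists_prime_orderOf_dvd_card' 2 hdvd
  have ht2 : t ^ 2 = 1 := by rw [← ht]; exact pow_orderOf_eq_one t
  have ht1 : t ≠ 1 := by
    rintro rfl
    rw [orderOf_one] at ht
    exact absurd ht (by norm_num)
  obtain ⟨n, hn, hmod, habs⟩ := Cfsg.Agent.H80.M11.invol_value hperf χ t ht
  rw [hdeg] at hmod habs
  have hn2 : n = 2 ∨ n = -2 := by
    have h1 := abs_le.mp habs
    have h2 : n % 4 = 2 % 4 := hmod
    push_cast at h1
    omega
  obtain ⟨N, ρ, hirr, hχ, hN, hχ1, hdegN⟩ := Cfsg.Agent.H82.irr_rep χ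
  have hN2 : N = 2 := by rw [← hdegN, hdeg]
  -- the kernel is not everything
  have hker_ne : Cfsg.Agent.H82.irrKer χ ≠ ⊤ := by
    intro htop
    have hall : ∀ g : G, χ.1 g = 2 := by
      intro g
      have hg : g ∈ Cfsg.Agent.H82.irrKer χ := htop ▸ Subgroup.mem_top g
      rw [Cfsg.Agent.H82.mem_irrKer] at hg
      rw [hg, hχ1, hN2]
      norm_num
    have hsum := Cfsg.Agent.H82.irr_norm_sq χ
    simp only [hall] at hsum
    rw [Finset.sum_const, Finset.card_univ, Nat.card_eq_fintype_card] at hsum
    have h4 : ((Fintype.card G : ℕ) : ℂ) ≠ 0 := by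
      exact_mod_cast Fintype.card_ne_zero
    have h3 : ((Fintype.card G : ℕ) : ℂ) * 4 = (Fintype.card G : ℂ) := by
      have h6 : (Fintype.card G) • ((2 : ℂ) * (starRingEnd ℂ) 2) =
          ((Fintype.card G : ℕ) : ℂ) * 4 := by
        rw [nsmul_eq_mul, map_ofNat]
        norm_num
      rw [← h6]
      exact hsum
    have h5 : (4 : ℂ) = 1 := by
      have := mul_left_cancel₀ h4 (h3.trans (mul_one _).symm)
      exact this
    norm_num at h5
  have hker : Cfsg.Agent.H82.irrKer χ = ⊥ := by
    have hnorm : (Cfsg.Agent.H82.irrKer χ).Normal := inferInstance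
    rcases hnorm.eq_bot_or_eq_top with h | h
    · exact h
    · exact absurd h hker_ne
  -- `t` is central
  have hcen : t ∈ Subgroup.center G := by
    rcases hn2 with h2 | h2
    · -- `χ t = 2 = χ 1`: `t` lies in the kernel
      exfalso
      have : t ∈ Cfsg.Agent.H82.irrKer χ := by
        rw [Cfsg.Agent.H82.mem_irrKer, hn, hχ1, hN2, h2]
        norm_num
      rw [hker, Subgroup.mem_bot] at this
      exact ht1 this
    · -- `χ t = -2`: `ρ t = -1`
      set M : Matrix (Fin N) (Fin N) ℂ := LinearMap.toMatrix' (ρ t) with hM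
      have hMM : M * M = 1 := by
        rw [hM, ← LinearMap.toMatrix'_mul, ← map_mul, ← sq, ht2, map_one, LinearMap.toMatrix'_one]
      have hct : ρ.character t = M.trace := by
        rw [Representation.character, hM,
          LinearMap.trace_eq_matrix_trace ℂ (Pi.basisFun ℂ (Fin N))]
        rfl
      have htr : M.trace = -(N : ℂ) := by
        rw [← hct, hχ, hn, h2, hN2]
        norm_num
      have hM1 : M = -1 := invol_eq_neg_one_of_trace M hMM htr
      have hρt : ρ t = -1 := by
        apply LinearMap.toMatrix'.injective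
        rw [← hM, hM1, map_neg, LinearMap.toMatrix'_one]
      rw [Subgroup.mem_center_iff]
      intro g
      have hmem : g * t * g⁻¹ * t⁻¹ ∈ Cfsg.Agent.H82.irrKer χ := by
        rw [Cfsg.Agent.H82.mem_irrKer_iff_rep χ ρ hχ]
        have hti : ρ t⁻¹ = -1 := by
          have h1 : t⁻¹ = t := by
            rw [inv_eq_iff_mul_eq_one, ← sq, ht2]
          rw [h1, hρt]
        apply LinearMap.ext
        intro v
        rw [map_mul, map_mul, map_mul, hρt, hti]
        simp only [Module.End.mul_apply, LinearMap.neg_apply, Module.End.one_apply, map_neg,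
          neg_neg]
        rw [← Module.End.mul_apply, ← map_mul, mul_inv_cancel, map_one, Module.End.one_apply]
      rw [hker, Subgroup.mem_bot] at hmem
      have h3 : g * t * g⁻¹ = t := by
        rw [mul_inv_eq_one] at hmem
        exact hmem
      rw [mul_inv_eq_iff_eq_mul] at h3
      exact h3
  -- the centre is trivial or everything
  have hcnorm : (Subgroup.center G).Normal := inferInstance
  rcases hcnorm.eq_bot_or_eq_top with h | h
  · rw [h, Subgroup.mem_bot] at hcen
    exact ht1 hcen
  · apply hnc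
    intro a b
    have ha : a ∈ Subgroup.center G := h ▸ Subgroup.mem_top a
    rw [Subgroup.mem_center_iff] at ha
    exact (ha b).symm

example : Cfsg.Agent.H2.Census.StmtNoDegTwo.{u} := noDegTwo

end Cfsg.Agent.H80.Census
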