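import Mathlib
import Cfsg.Agent.H80.AbelIndex

set_option autoImplicit false
set_option linter.unusedSectionVars false
set_option linter.style.haveILetI false

/-!
# helper80: a lower bound for integral combinations of linear characters off a subgroup

Let `A` be a finite abelian group, `Φ` a subgroup and `F = ∑ m_i λ_i` an integral combination of
linear characters of `A`.  If `F` does not vanish identically outside `Φ`, then
`∑_{v ∉ Φ} |F(v)|² ≥ |A| - |Φ|` (`sum_normSq_off_subgroup_ge`).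
-/

namespace Cfsg.Agent.H80

open Cfsg
open scoped ComplexConjugate

section Comb

/-- Integers indexed by a finite type, not all equal: the sum of the squared differences over
all ordered pairs is at least `2 (|T| - 1)`. -/
theorem two_mul_card_sub_one_le_sum_sq {T : Type*} [Fintype T] [DecidableEq T] (g : T → ℤ)
    (a b : T) (hab : g a ≠ g b) :
    2 * ((Fintype.card T : ℤ) - 1) ≤ ∑ α : T, ∑ β : T, (g α - g β) ^ 2 := by
  have hne : a ≠ b := fun h => hab (by rw [h])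
  have hsq : ∀ x : ℤ, x ≠ 0 → 1 ≤ x ^ 2 := by
    intro x hx
    rcases lt_or_gt_of_ne hx with h | h <;> nlinarith
  have hr : ∀ β : T, 1 ≤ (g a - g β) ^ 2 + (g b - g β) ^ 2 := by
    intro β
    by_cases h : g β = g a
    · have h2 := hsq (g b - g β) (by rw [h]; exact sub_ne_zero.mpr (Ne.symm hab))
      nlinarith [sq_nonneg (g a - g β)]
    · have h2 := hsq (g a - g β) (sub_ne_zero.mpr (Ne.symm h))
      nlinarith [sq_nonneg (g b - g β)]
  have hb : b ∈ Finset.univ.erase a := Finset.mem_erase.mpr ⟨Ne.symm hne, Finset.mem_univ b⟩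
  have hr' : ∀ α : T, 1 ≤ ∑ β : T, (g α - g β) ^ 2 := by
    intro α
    have h1 := Finset.add_sum_erase Finset.univ (fun β => (g α - g β) ^ 2) (Finset.mem_univ a)
    have h2 := Finset.add_sum_erase (Finset.univ.erase a) (fun β => (g α - g β) ^ 2) hb
    have h3 : 0 ≤ ∑ β ∈ (Finset.univ.erase a).erase b, (g α - g β) ^ 2 :=
      Finset.sum_nonneg (fun _ _ => sq_nonneg _)
    have h4 := hr α
    have e1 : (g α - g a) ^ 2 = (g a - g α) ^ 2 := by ring
    have e2 : (g α - g b) ^ 2 = (g b - g α) ^ 2 := by ring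
    beta_reduce at h1 h2
    linarith
  have h1 := Finset.add_sum_erase Finset.univ (fun α => ∑ β : T, (g α - g β) ^ 2)
    (Finset.mem_univ a)
  have h2 := Finset.add_sum_erase (Finset.univ.erase a) (fun α => ∑ β : T, (g α - g β) ^ 2) hb
  have h3 : ((Finset.univ.erase a).erase b).card • (1 : ℤ)
      ≤ ∑ α ∈ (Finset.univ.erase a).erase b, ∑ β : T, (g α - g β) ^ 2 :=
    Finset.card_nsmul_le_sum _ _ _ (fun α _ => hr' α)
  have h4 : ((Finset.univ.erase a).erase b).card + 1 = (Finset.univ.erase a).card :=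
    Finset.card_erase_add_one hb
  have h5 : (Finset.univ.erase a).card + 1 = Fintype.card T := by
    rw [Finset.card_erase_add_one (Finset.mem_univ a), Finset.card_univ]
  have h6 : (Fintype.card T : ℤ)
      ≤ (∑ β : T, (g a - g β) ^ 2) + ∑ β : T, (g b - g β) ^ 2 := by
    rw [← Finset.sum_add_distrib]
    calc (Fintype.card T : ℤ) = ∑ β : T, (1 : ℤ) := by simp
      _ ≤ _ := Finset.sum_le_sum (fun β _ => hr β)
  have h7 : (((Finset.univ.erase a).erase b).card : ℤ) + 2 = Fintype.card T := by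
    have : ((Finset.univ.erase a).erase b).card + 2 = Fintype.card T := by omega
    exact_mod_cast this
  simp only [nsmul_eq_mul, mul_one] at h3
  beta_reduce at h1 h2
  linarith

end Comb

section HomHelpers

variable {B : Type*} [Group B]

theorem hom_one_mul (μ : B →* ℂˣ) : (1 : B →* ℂˣ) * μ = μ := by
  ext v; simp

theorem hom_mul_assoc (a b c : B →* ℂˣ) : a * b * c = a * (b * c) := by
  ext v; simp [mul_assoc]

theorem hom_mulLeft_bijective (κ : B →* ℂˣ) :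
    Function.Bijective (fun μ : B →* ℂˣ => κ * μ) := by
  refine ⟨fun a b h => ?_, fun b => ⟨κ⁻¹ * b, ?_⟩⟩
  · refine MonoidHom.ext (fun v => ?_)
    have h1 := congrArg (fun f : B →* ℂˣ => f v) h
    simpa using h1
  · ext v; simp

theorem hom_mulRight_bijective (κ : B →* ℂˣ) :
    Function.Bijective (fun μ : B →* ℂˣ => μ * κ) := by
  refine ⟨fun a b h => ?_, fun b => ⟨b * κ⁻¹, ?_⟩⟩
  · refine MonoidHom.ext (fun v => ?_)
    have h1 := congrArg (fun f : B →* ℂˣ => f v) h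
    simpa using h1
  · ext v; simp

end HomHelpers

section DualSum

variable {A : Type*} [Group A] [Fintype A]

theorem conj_unit_hom (ν : A →* ℂˣ) (v : A) :
    conj ((ν v : ℂˣ) : ℂ) = ((ν⁻¹ v : ℂˣ) : ℂ) := by
  have h1 : ((ν v : ℂˣ) : ℂ) ^ Nat.card A = 1 := by
    rw [← Units.val_pow_eq_pow_val, ← map_pow, pow_card_eq_one', map_one, Units.val_one]
  have h2 : ‖((ν v : ℂˣ) : ℂ)‖ = 1 := Complex.norm_eq_one_of_pow_eq_one h1 Nat.card_pos.ne'
  rw [MonoidHom.inv_apply, Units.val_inv_eq_inv_val, Complex.inv_eq_conj h2]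

/-- The values of a nontrivial linear character sum to zero. -/
theorem sum_apply_hom_eq_zero (η : A →* ℂˣ) (hη : η ≠ 1) : ∑ v : A, ((η v : ℂˣ) : ℂ) = 0 := by
  obtain ⟨a, ha⟩ : ∃ a : A, η a ≠ 1 := by
    by_contra hcon
    push Not at hcon
    exact hη (MonoidHom.ext (fun v => by rw [hcon v, MonoidHom.one_apply]))
  have h1 : ((η a : ℂˣ) : ℂ) * ∑ v : A, ((η v : ℂˣ) : ℂ) = ∑ v : A, ((η v : ℂˣ) : ℂ) := by
    rw [Finset.mul_sum]
    exact Fintype.sum_bijective (fun v => a * v) (Group.mulLeft_bijective a) _ _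
      (fun v => by rw [map_mul, Units.val_mul])
  have h2 : ((η a : ℂˣ) : ℂ) ≠ 1 := fun h => ha (Units.ext h)
  have h3 : (((η a : ℂˣ) : ℂ) - 1) * ∑ v : A, ((η v : ℂˣ) : ℂ) = 0 := by
    rw [sub_mul, h1, one_mul, sub_self]
  rcases mul_eq_zero.mp h3 with h | h
  · exact absurd (sub_eq_zero.mp h) h2
  · exact h

/-- Twisted Parseval identity for an integral combination of linear characters. -/
theorem sum_twist_mul_conj [Fintype (A →* ℂˣ)] [DecidableEq (A →* ℂˣ)]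
    (n : (A →* ℂˣ) → ℤ) (κ : A →* ℂˣ) :
    ∑ v : A, ((κ v : ℂˣ) : ℂ) * ((∑ μ : A →* ℂˣ, (n μ : ℂ) * ((μ v : ℂˣ) : ℂ)) *
        conj (∑ μ : A →* ℂˣ, (n μ : ℂ) * ((μ v : ℂˣ) : ℂ)))
      = (Fintype.card A : ℂ) * ∑ μ : A →* ℂˣ, (n μ : ℂ) * (n (κ * μ) : ℂ) := by
  have hconj : ∀ v : A, conj (∑ μ : A →* ℂˣ, (n μ : ℂ) * ((μ v : ℂˣ) : ℂ))
      = ∑ ν : A →* ℂˣ, (n ν : ℂ) * ((ν⁻¹ v : ℂˣ) : ℂ) := by
    intro v
    rw [map_sum]
    apply Finset.sum_congr rfl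
    intro ν _
    rw [map_mul, map_intCast, conj_unit_hom]
  have h1 : ∀ v : A, ((κ v : ℂˣ) : ℂ) * ((∑ μ : A →* ℂˣ, (n μ : ℂ) * ((μ v : ℂˣ) : ℂ)) *
        conj (∑ μ : A →* ℂˣ, (n μ : ℂ) * ((μ v : ℂˣ) : ℂ)))
      = ∑ μ : A →* ℂˣ, ∑ ν : A →* ℂˣ,
          (n μ : ℂ) * (n ν : ℂ) * (((κ * μ * ν⁻¹) v : ℂˣ) : ℂ) := by
    intro v
    rw [hconj v, Finset.sum_mul_sum, Finset.mul_sum]
    apply Finset.sum_congr rfl
    intro μ _
    rw [Finset.mul_sum]
    apply Finset.sum_congr rfl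
    intro ν _
    simp only [MonoidHom.mul_apply, Units.val_mul]
    ring
  rw [Finset.sum_congr rfl (fun v _ => h1 v), Finset.sum_comm, Finset.mul_sum]
  apply Finset.sum_congr rfl
  intro μ _
  rw [Finset.sum_comm]
  have h2 : ∀ ν : A →* ℂˣ,
      ∑ v : A, (n μ : ℂ) * (n ν : ℂ) * (((κ * μ * ν⁻¹) v : ℂˣ) : ℂ)
        = if ν = κ * μ then (n μ : ℂ) * (n ν : ℂ) * (Fintype.card A : ℂ) else 0 := by
    intro ν
    rw [← Finset.mul_sum]
    by_cases h : ν = κ * μ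
    · have e : κ * μ * (κ * μ)⁻¹ = 1 := mul_inv_cancel (κ * μ)
      rw [if_pos h, h, e]
      simp
    · have e : κ * μ * ν⁻¹ ≠ 1 := fun h' => h (mul_inv_eq_one.mp h').symm
      rw [if_neg h, sum_apply_hom_eq_zero _ e, mul_zero]
  rw [Finset.sum_congr rfl (fun ν _ => h2 ν), Finset.sum_ite_eq' Finset.univ (κ * μ),
    if_pos (Finset.mem_univ _)]
  ring

theorem qHom_one' (Φ : Subgroup A) [Φ.Normal] : qHom Φ (1 : A ⧸ Φ →* ℂˣ) = 1 := rfl

theorem qHom_mul' (Φ : Subgroup A) [Φ.Normal] (l l' : A ⧸ Φ →* ℂˣ) :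
    qHom Φ (l * l') = qHom Φ l * qHom Φ l' := rfl

theorem qHom_injective' (Φ : Subgroup A) [Φ.Normal] :
    Function.Injective (qHom Φ : (A ⧸ Φ →* ℂˣ) → (A →* ℂˣ)) := by
  intro l l' h
  apply MonoidHom.ext
  intro q
  obtain ⟨a, rfl⟩ := QuotientGroup.mk_surjective q
  exact congrArg (fun f : A →* ℂˣ => f a) h

/-- **A lower bound off a subgroup.**  An integral combination `F` of linear characters of the
finite abelian group `A` which does not vanish identically outside the subgroup `Φ` satisfies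
`∑_{v ∉ Φ} |F(v)|² ≥ |A| - |Φ|`. -/
theorem sum_normSq_off_subgroup_ge (hA : ∀ a b : A, a * b = b * a) (Φ : Subgroup A)
    [DecidablePred (· ∈ Φ)] {I : Type*} [Fintype I] (m : I → ℤ) (lam : I → (A →* ℂˣ))
    (F : A → ℂ) (hF : ∀ v, F v = ∑ i, (m i : ℂ) * ((lam i v : ℂˣ) : ℂ))
    (hne : ∃ v, v ∉ Φ ∧ F v ≠ 0) :
    ((Nat.card A : ℝ) - Nat.card Φ)
      ≤ ∑ v ∈ Finset.univ.filter (fun v => v ∉ Φ), Complex.normSq (F v) := by
  classical
  haveI : Φ.Normal := ⟨fun n hn g => by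
    rw [hA g n, mul_assoc, mul_inv_cancel, mul_one]; exact hn⟩
  have hAq : ∀ a b : A ⧸ Φ, a * b = b * a := by
    intro a b
    obtain ⟨a, rfl⟩ := QuotientGroup.mk_surjective a
    obtain ⟨b, rfl⟩ := QuotientGroup.mk_surjective b
    rw [← QuotientGroup.mk_mul, ← QuotientGroup.mk_mul, hA a b]
  haveI := (card_hom_of_comm A hA).1
  letI : Fintype (A →* ℂˣ) := Fintype.ofFinite _
  haveI := (card_hom_of_comm (A ⧸ Φ) hAq).1
  letI : Fintype (A ⧸ Φ →* ℂˣ) := Fintype.ofFinite _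
  have hcardq : Fintype.card (A ⧸ Φ →* ℂˣ) = Φ.index := by
    rw [← Nat.card_eq_fintype_card, (card_hom_of_comm _ hAq).2, Subgroup.index_eq_card]
  have hidx0 : 0 < Φ.index := Nat.pos_of_ne_zero Subgroup.index_ne_zero_of_finite
  obtain ⟨n, hn⟩ : ∃ n : (A →* ℂˣ) → ℤ, n = fun μ => ∑ i, if lam i = μ then m i else 0 :=
    ⟨_, rfl⟩
  have hFn : ∀ v, F v = ∑ μ : A →* ℂˣ, (n μ : ℂ) * ((μ v : ℂˣ) : ℂ) := by
    intro v
    rw [hF v, hn]
    simp only [Int.cast_sum, Finset.sum_mul]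
    rw [Finset.sum_comm]
    apply Finset.sum_congr rfl
    intro i _
    rw [Finset.sum_eq_single (lam i)]
    · rw [if_pos rfl]
    · intro μ _ hμ
      rw [if_neg (Ne.symm hμ), Int.cast_zero, zero_mul]
    · intro h
      exact absurd (Finset.mem_univ _) h
  -- the indicator of `Φ` as a sum of characters
  have hind : ∀ v : A, ∑ l : A ⧸ Φ →* ℂˣ, ((qHom Φ l v : ℂˣ) : ℂ)
      = if v ∈ Φ then (Φ.index : ℂ) else 0 := by
    intro v
    have h1 := sum_hom_apply (A ⧸ Φ) hAq (QuotientGroup.mk v : A ⧸ Φ)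
    have h2 : (∑ l : A ⧸ Φ →* ℂˣ, ((qHom Φ l v : ℂˣ) : ℂ))
        = ∑ l : A ⧸ Φ →* ℂˣ, ((l (QuotientGroup.mk v) : ℂˣ) : ℂ) := rfl
    rw [h2, h1]
    by_cases hv : v ∈ Φ
    · rw [if_pos hv, if_pos ((QuotientGroup.eq_one_iff v).mpr hv), Subgroup.index_eq_card]
    · rw [if_neg hv, if_neg (fun h => hv ((QuotientGroup.eq_one_iff v).mp h))]
  obtain ⟨N2, hN2⟩ : ∃ N2 : A → ℂ, N2 = fun v => F v * conj (F v) := ⟨_, rfl⟩
  have hN2' : ∀ v, N2 v = (∑ μ : A →* ℂˣ, (n μ : ℂ) * ((μ v : ℂˣ) : ℂ)) *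
        conj (∑ μ : A →* ℂˣ, (n μ : ℂ) * ((μ v : ℂˣ) : ℂ)) := by
    intro v
    rw [hN2]
    show F v * conj (F v) = _
    rw [hFn v]
  -- the total sum
  have hT1 : ∑ v : A, N2 v = (Fintype.card A : ℂ) * ∑ μ : A →* ℂˣ, (n μ : ℂ) * (n μ : ℂ) := by
    have h1 := sum_twist_mul_conj n (1 : A →* ℂˣ)
    simp only [MonoidHom.one_apply, Units.val_one, one_mul] at h1
    have h2 : ∀ μ : A →* ℂˣ, (n μ : ℂ) * (n (1 * μ) : ℂ) = (n μ : ℂ) * (n μ : ℂ) := by
      intro μ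
      have e : (1 : A →* ℂˣ) * μ = μ := one_mul μ
      rw [e]
    rw [Finset.sum_congr rfl (fun μ _ => h2 μ)] at h1
    rw [← h1]
    exact Finset.sum_congr rfl (fun v _ => hN2' v)
  -- the sum over `Φ`
  have hT2 : (Φ.index : ℂ) * ∑ v : A, (if v ∈ Φ then N2 v else 0)
      = (Fintype.card A : ℂ) * ∑ l : A ⧸ Φ →* ℂˣ, ∑ μ : A →* ℂˣ,
          (n μ : ℂ) * (n (qHom Φ l * μ) : ℂ) := by
    have h1 : ∀ v : A, (Φ.index : ℂ) * (if v ∈ Φ then N2 v else 0)
        = ∑ l : A ⧸ Φ →* ℂˣ, ((qHom Φ l v : ℂˣ) : ℂ) * N2 v := by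
      intro v
      rw [← Finset.sum_mul, hind v]
      by_cases hv : v ∈ Φ
      · rw [if_pos hv, if_pos hv]
      · rw [if_neg hv, if_neg hv, mul_zero, zero_mul]
    rw [Finset.mul_sum, Finset.sum_congr rfl (fun v _ => h1 v), Finset.sum_comm, Finset.mul_sum]
    apply Finset.sum_congr rfl
    intro l _
    rw [← sum_twist_mul_conj n (qHom Φ l)]
    apply Finset.sum_congr rfl
    intro v _
    rw [hN2' v]
  -- the integer `E`
  obtain ⟨E, hE⟩ : ∃ E : ℤ, E = ∑ l : A ⧸ Φ →* ℂˣ, ∑ μ : A →* ℂˣ,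
      (n μ - n (qHom Φ l * μ)) ^ 2 := ⟨_, rfl⟩
  have hshift : ∀ l : A ⧸ Φ →* ℂˣ, ∑ μ : A →* ℂˣ, (n (qHom Φ l * μ) : ℂ) * (n (qHom Φ l * μ) : ℂ)
      = ∑ μ : A →* ℂˣ, (n μ : ℂ) * (n μ : ℂ) := by
    intro l
    exact Fintype.sum_bijective (fun μ => qHom Φ l * μ) (hom_mulLeft_bijective _) _ _
      (fun μ => rfl)
  have hEc : (E : ℂ) = 2 * ((Φ.index : ℂ) * ∑ μ : A →* ℂˣ, (n μ : ℂ) * (n μ : ℂ)
      - ∑ l : A ⧸ Φ →* ℂˣ, ∑ μ : A →* ℂˣ, (n μ : ℂ) * (n (qHom Φ l * μ) : ℂ)) := by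
    rw [hE]
    push_cast
    have h1 : ∀ l : A ⧸ Φ →* ℂˣ, ∑ μ : A →* ℂˣ, ((n μ : ℂ) - (n (qHom Φ l * μ) : ℂ)) ^ 2
        = 2 * (∑ μ : A →* ℂˣ, (n μ : ℂ) * (n μ : ℂ)
          - ∑ μ : A →* ℂˣ, (n μ : ℂ) * (n (qHom Φ l * μ) : ℂ)) := by
      intro l
      have h2 : ∀ μ : A →* ℂˣ, ((n μ : ℂ) - (n (qHom Φ l * μ) : ℂ)) ^ 2
          = (n μ : ℂ) * (n μ : ℂ) + (n (qHom Φ l * μ) : ℂ) * (n (qHom Φ l * μ) : ℂ)
            - 2 * ((n μ : ℂ) * (n (qHom Φ l * μ) : ℂ)) := by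
        intro μ; ring
      rw [Finset.sum_congr rfl (fun μ _ => h2 μ), Finset.sum_sub_distrib, Finset.sum_add_distrib,
        hshift l, ← Finset.mul_sum]
      ring
    rw [Finset.sum_congr rfl (fun l _ => h1 l), ← Finset.mul_sum, Finset.sum_sub_distrib,
      Finset.sum_const, Finset.card_univ, hcardq, nsmul_eq_mul]
  -- the sum off `Φ`
  have hoff : ∑ v ∈ Finset.univ.filter (fun v => v ∉ Φ), N2 v
      = ∑ v : A, N2 v - ∑ v : A, (if v ∈ Φ then N2 v else 0) := by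
    rw [Finset.sum_filter, ← Finset.sum_sub_distrib]
    apply Finset.sum_congr rfl
    intro v _
    by_cases hv : v ∈ Φ
    · rw [if_neg (not_not.mpr hv), if_pos hv, sub_self]
    · rw [if_pos hv, if_neg hv, sub_zero]
  have hmain : (2 : ℂ) * (Φ.index : ℂ) * ∑ v ∈ Finset.univ.filter (fun v => v ∉ Φ), N2 v
      = (Fintype.card A : ℂ) * (E : ℂ) := by
    rw [hoff, mul_sub, mul_assoc, mul_assoc, hT2, hT1, hEc]
    ring
  obtain ⟨S, hS⟩ : ∃ S : ℝ, S = ∑ v ∈ Finset.univ.filter (fun v => v ∉ Φ), Complex.normSq (F v) :=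
    ⟨_, rfl⟩
  have hSc : ∑ v ∈ Finset.univ.filter (fun v => v ∉ Φ), N2 v = (S : ℂ) := by
    rw [hS, Complex.ofReal_sum]
    apply Finset.sum_congr rfl
    intro v _
    rw [hN2]
    exact Complex.mul_conj (F v)
  rw [hSc] at hmain
  have hmainR : 2 * (Φ.index : ℝ) * S = (Fintype.card A : ℝ) * (E : ℝ) := by
    apply Complex.ofReal_injective
    push_cast
    exact hmain
  rw [← hS]
  -- `E ≥ 2 (index - 1)`
  have hEge : 2 * ((Φ.index : ℤ) - 1) ≤ E := by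
    obtain ⟨l₀, μ₀, hl₀⟩ : ∃ (l₀ : A ⧸ Φ →* ℂˣ) (μ₀ : A →* ℂˣ), n μ₀ ≠ n (qHom Φ l₀ * μ₀) := by
      by_contra hcon
      push Not at hcon
      have hE0 : E = 0 := by
        rw [hE]
        apply Finset.sum_eq_zero
        intro l _
        apply Finset.sum_eq_zero
        intro μ _
        rw [hcon l μ, sub_self]
        ring
      rw [hE0, Int.cast_zero, mul_zero] at hmainR
      have hS0 : S = 0 := by
        have h2 : (0 : ℝ) < 2 * (Φ.index : ℝ) := by positivity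
        exact (mul_eq_zero.mp hmainR).resolve_left h2.ne'
      obtain ⟨v, hv, hFv⟩ := hne
      rw [hS] at hS0
      have h3 := (Finset.sum_eq_zero_iff_of_nonneg (fun v _ => Complex.normSq_nonneg (F v))).mp hS0
        v (Finset.mem_filter.mpr ⟨Finset.mem_univ v, hv⟩)
      exact hFv (Complex.normSq_eq_zero.mp h3)
    obtain ⟨g, hg⟩ : ∃ g : (A ⧸ Φ →* ℂˣ) → ℤ, g = fun l => n (qHom Φ l * μ₀) := ⟨_, rfl⟩
    have hg1 : g 1 ≠ g l₀ := by
      rw [hg]
      show n (qHom Φ 1 * μ₀) ≠ n (qHom Φ l₀ * μ₀)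
      rw [qHom_one', hom_one_mul]
      exact hl₀
    have h1 := two_mul_card_sub_one_le_sum_sq g 1 l₀ hg1
    rw [hcardq] at h1
    refine h1.trans ?_
    have hre : ∀ α : A ⧸ Φ →* ℂˣ, ∑ β : A ⧸ Φ →* ℂˣ, (g α - g β) ^ 2
        = ∑ l : A ⧸ Φ →* ℂˣ, (g α - g (l * α)) ^ 2 := fun α =>
      (Fintype.sum_bijective (fun l : A ⧸ Φ →* ℂˣ => l * α) (hom_mulRight_bijective α) _ _
        (fun _ => rfl)).symm
    rw [Finset.sum_congr rfl (fun α _ => hre α), Finset.sum_comm, hE]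
    apply Finset.sum_le_sum
    intro l _
    -- `∑_β (g α - g β)² ≤ ∑_μ (n μ - n (θ l μ))²` after reindexing
    have hinj : Function.Injective (fun l' : A ⧸ Φ →* ℂˣ => qHom Φ l' * μ₀) := by
      intro l₁ l₂ h
      apply qHom_injective' Φ
      refine MonoidHom.ext (fun v => ?_)
      have h1 := congrArg (fun f : A →* ℂˣ => f v) h
      simpa using h1
    have h2 : ∑ l' : A ⧸ Φ →* ℂˣ, (g l' - g (l * l')) ^ 2
        = ∑ μ ∈ Finset.univ.image (fun l' : A ⧸ Φ →* ℂˣ => qHom Φ l' * μ₀),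
            (n μ - n (qHom Φ l * μ)) ^ 2 := by
      rw [Finset.sum_image (fun x _ y _ h => hinj h)]
      apply Finset.sum_congr rfl
      intro l' _
      rw [hg]
      show (n (qHom Φ l' * μ₀) - n (qHom Φ (l * l') * μ₀)) ^ 2 = _
      rw [qHom_mul', hom_mul_assoc]
    rw [h2]
    exact Finset.sum_le_sum_of_subset_of_nonneg (Finset.subset_univ _)
      (fun _ _ _ => sq_nonneg _)
  have hci : (Fintype.card A : ℝ) = (Nat.card Φ : ℝ) * (Φ.index : ℝ) := by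
    have h1 := Subgroup.card_mul_index Φ
    rw [Nat.card_eq_fintype_card (α := A)] at h1
    exact_mod_cast h1.symm
  have hE' : (2 : ℝ) * ((Φ.index : ℝ) - 1) ≤ (E : ℝ) := by exact_mod_cast hEge
  have hi : (0 : ℝ) < Φ.index := by exact_mod_cast hidx0
  have hΦ0 : (0 : ℝ) ≤ Nat.card Φ := by positivity
  have h3 : 2 * (Φ.index : ℝ) * S = 2 * (Φ.index : ℝ) * ((Nat.card Φ : ℝ) * E / 2) := by
    rw [hmainR, hci]; ring
  have h4 : S = (Nat.card Φ : ℝ) * E / 2 := mul_left_cancel₀ (by positivity) h3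
  have h5 := mul_le_mul_of_nonneg_left hE' hΦ0
  rw [h4, Nat.card_eq_fintype_card (α := A), hci]
  linarith

end DualSum

end Cfsg.Agent.H80
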