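import Cfsg.Agent.S4656
import Cfsg.Agent.S4657
import Cfsg.Agent.H80.SylowPair
import Cfsg.Agent.H80.FullCent
import Cfsg.Agent.H80.NilFusion
import Cfsg.Agent.H80.BlockFusion2
import Cfsg.Agent.H80.SubpairLE
import Cfsg.Agent.H79.CentralDefect
import Cfsg.Agent.H20.DefectOrder

/-!
# Character-theoretic description of the maximal Brauer pairs

`(Q, e)` is a maximal Brauer pair of its block iff `Z(Q)` is a defect group of `e` and the
`p`-elements of the stabilizer of `e` in `N_G(Q)` lie in `Q C_G(Q)`.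

* `centreSub Q`: `Z(Q) = Q ∩ C_G(Q)` as a subgroup of `C_G(Q)`.
* `isDefectGroup_centreSub_of_maximal`: for a maximal pair, `Z(Q)` is a defect group of `e`.
* `isMaximal_of_centreSub`: the converse direction.
-/

namespace Cfsg.Agent.H80

open Cfsg Cfsg.Agent.H20 Cfsg.Agent.H4

universe u

section

variable {G : Type u} [Group G]

/-- `Z(Q) = Q ∩ C_G(Q)` as a subgroup of `C_G(Q)`. -/
abbrev centreSub (Q : Subgroup G) : Subgroup (Subgroup.centralizer (Q : Set G)) :=
  (Q ⊓ Subgroup.centralizer (Q : Set G)).subgroupOf (Subgroup.centralizer (Q : Set G))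

theorem centreSub_le_center (Q : Subgroup G) :
    centreSub Q ≤ Subgroup.center (Subgroup.centralizer (Q : Set G)) := by
  intro z hz
  rw [Subgroup.mem_subgroupOf] at hz
  rw [Subgroup.mem_center_iff]
  intro c
  apply Subtype.ext
  have h := Subgroup.mem_centralizer_iff.mp c.2 (z : G) hz.1
  simp only [Subgroup.coe_mul]
  exact h.symm

theorem card_centreSub (Q : Subgroup G) :
    Nat.card (centreSub Q) = Nat.card ↥(Q ⊓ Subgroup.centralizer (Q : Set G)) :=
  Nat.card_congr (Subgroup.subgroupOfEquivOfLe inf_le_right).toEquiv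

theorem isPGroup_centreSub {p : ℕ} {Q : Subgroup G} (hQ : IsPGroup p Q) :
    IsPGroup p (centreSub Q) :=
  (hQ.to_le inf_le_left).comap_subtype

theorem factorization_centreSub [Finite G] (p : ℕ) (Q : Subgroup G) :
    (Nat.card ↥(Q ⊓ Subgroup.centralizer (Q : Set G))).factorization p
      + (centreSub Q).index.factorization p
      = (Nat.card (Subgroup.centralizer (Q : Set G))).factorization p := by
  have h1 := Subgroup.card_mul_index (centreSub Q)
  rw [card_centreSub] at h1
  rw [← h1, Nat.factorization_mul Nat.card_pos.ne' Subgroup.index_ne_zero_of_finite]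
  rfl

end

section Main

variable {G : Type u} [Group G] [Fintype G] {M : Ideal AlgInt} (p : ℕ) [Fact p.Prime]

/-- For a maximal Brauer pair `(Q, e)`, the centre of `Q` is a defect group of `e`. -/
theorem isDefectGroup_centreSub_of_maximal (hM : IsPModular p M) {B : Set (IrrCharacter G)}
    {Q : Subgroup G} {e : Set (IrrCharacter (Subgroup.centralizer (Q : Set G)))}
    (hmax : IsMaximalBrauerPair p M B Q e) : IsDefectGroup p M e (centreSub Q) := by
  classical
  have hrefl : SubpairLE p M Q e Q e := Relation.ReflTransGen.refl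
  obtain ⟨D, hD, hle⟩ := exists_defectGroup_ge_centralizer p hM hmax.1.1 hrefl
  obtain ⟨x, hx, hD'⟩ := exists_conj_fully_centralized p hM hmax hrefl
  have hQx : Q.map (MulAut.conj x).toMonoidHom = Q := by
    apply Subgroup.eq_of_le_of_card_ge (subpairLE_le hx)
    rw [Subgroup.card_map_of_injective (MulEquiv.injective _)]
  have hc := card_defectGroup_conjBlock p hM Q x hmax.1.1.2 hD hD'
  have hc2 : Nat.card ↥((Q ⊓ Subgroup.centralizer
        ((Q.map (MulAut.conj x).toMonoidHom : Subgroup G) : Set G)).subgroupOf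
          (Subgroup.centralizer ((Q.map (MulAut.conj x).toMonoidHom : Subgroup G) : Set G)))
      = Nat.card ↥(Q ⊓ Subgroup.centralizer (Q : Set G)) := by
    rw [Nat.card_congr (Subgroup.subgroupOfEquivOfLe inf_le_right).toEquiv, hQx]
  have hDeq : centreSub Q = D := by
    apply Subgroup.eq_of_le_of_card_ge hle
    rw [hc, hc2, card_centreSub]
  rw [hDeq]
  exact hD

/-- The forward direction: a maximal pair `(Q, e)` has a member of `e` trivial on `Z(Q)` of
relative defect zero, and the `p`-elements stabilizing `e` lie in `Q C_G(Q)`. -/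
theorem exists_char_of_maximal (hM : IsPModular p M) {B : Set (IrrCharacter G)}
    {Q : Subgroup G} {e : Set (IrrCharacter (Subgroup.centralizer (Q : Set G)))}
    (hmax : IsMaximalBrauerPair p M B Q e) :
    ∃ θ ∈ e, (∀ z : Subgroup.centralizer (Q : Set G), (z : G) ∈ Q →
        (θ : Subgroup.centralizer (Q : Set G) → ℂ) z
          = (θ : Subgroup.centralizer (Q : Set G) → ℂ) 1) ∧
      (charDegree (θ : Subgroup.centralizer (Q : Set G) → ℂ)).factorization p
        + (Nat.card ↥(Q ⊓ Subgroup.centralizer (Q : Set G))).factorization p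
        = (Nat.card (Subgroup.centralizer (Q : Set G))).factorization p := by
  classical
  have hfC : Fintype ↥(Subgroup.centralizer (Q : Set G)) := Fintype.ofFinite _
  have hMp := isPrime_of_isPModular hM
  have hdef := isDefectGroup_centreSub_of_maximal p hM hmax
  obtain ⟨ξ₀, hξ₀⟩ := hmax.1.1.2
  rw [hξ₀] at hdef
  obtain ⟨⟨χ₁, hχ₁, hdeg⟩, -⟩ :=
    Cfsg.Agent.H79.exists_height_zero_of_defectGroup hM ξ₀ (centreSub Q) hdef
  have hfD : Fintype ↥(centreSub Q) := Fintype.ofFinite _
  obtain ⟨ψ, hψ, hover, -, hψdeg, -, -⟩ :=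
    Cfsg.Agent.H79.exists_unique_over hM (centreSub Q) (isPGroup_centreSub hmax.1.1.1)
      (centreSub_le_center Q) χ₁ hdeg (trivChar ↥(centreSub Q))
  rw [blockOf_eq_of_mem hMp hχ₁] at hψ
  refine ⟨ψ, by rw [hξ₀]; exact hψ, ?_, ?_⟩
  · intro z hz
    have hzD : z ∈ centreSub Q := by
      rw [Subgroup.mem_subgroupOf]
      exact ⟨hz, z.2⟩
    have h1 := hover ⟨z, hzD⟩ 1
    rw [trivChar_apply, one_mul, mul_one] at h1
    exact h1
  · rw [hψdeg, add_comm]
    exact factorization_centreSub p Q

/-- The converse direction: if `e` has a member of relative defect zero over `Z(Q)` and the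
`p`-elements of the stabilizer of `e` lie in `Q C_G(Q)`, then `(Q, e)` is a maximal pair of its
block. -/
theorem isMaximal_of_char (hM : IsPModular p M) {B : Set (IrrCharacter G)}
    {Q : Subgroup G} {e : Set (IrrCharacter (Subgroup.centralizer (Q : Set G)))}
    (hB : IsBrauerPairOf p M B Q e)
    (θ : IrrCharacter (Subgroup.centralizer (Q : Set G))) (hθ : θ ∈ e)
    (hdeg : (charDegree (θ : Subgroup.centralizer (Q : Set G) → ℂ)).factorization p
        + (Nat.card ↥(Q ⊓ Subgroup.centralizer (Q : Set G))).factorization p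
        = (Nat.card (Subgroup.centralizer (Q : Set G))).factorization p)
    (hstab : ∀ g : G, g ∈ Subgroup.normalizer (Q : Set G) →
      StabilizesBlock (Subgroup.centralizer (Q : Set G)) e g → (∃ k : ℕ, orderOf g = p ^ k) →
        g ∈ Q ⊔ Subgroup.centralizer (Q : Set G)) :
    IsMaximalBrauerPair p M B Q e := by
  classical
  have hfC : Fintype ↥(Subgroup.centralizer (Q : Set G)) := Fintype.ofFinite _
  have hMp := isPrime_of_isPModular hM
  have hp : p.Prime := hM.1
  have hQ : IsPGroup p Q := hB.1.1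
  obtain ⟨ξ₀, hξ₀⟩ := hB.1.2
  have hθ' : θ ∈ blockOf M (ξ₀ : Subgroup.centralizer (Q : Set G) → ℂ) := by
    rw [← hξ₀]; exact hθ
  have heθ : e = blockOf M (θ : Subgroup.centralizer (Q : Set G) → ℂ) := by
    rw [hξ₀, blockOf_eq_of_mem hMp hθ']
  have hfac := factorization_centreSub p Q
  have hdeg' : (charDegree (θ : Subgroup.centralizer (Q : Set G) → ℂ)).factorization p
      = (centreSub Q).index.factorization p := by omega
  -- the defect of `e`
  have hlow : ∀ ψ ∈ e, (centreSub Q).index.factorization p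
      ≤ (charDegree (ψ : Subgroup.centralizer (Q : Set G) → ℂ)).factorization p := by
    intro ψ hψ
    rw [heθ] at hψ
    exact Cfsg.Agent.H79.factorization_le_of_sameBlock hM (centreSub Q) (isPGroup_centreSub hQ)
      (centreSub_le_center Q) θ ψ hdeg' hψ
  have hsInf : sInf ((fun χ : IrrCharacter (Subgroup.centralizer (Q : Set G)) =>
      (charDegree (χ : Subgroup.centralizer (Q : Set G) → ℂ)).factorization p) '' e)
      = (centreSub Q).index.factorization p := by
    apply le_antisymm
    · rw [← hdeg']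
      exact Nat.sInf_le ⟨θ, hθ, rfl⟩
    · apply le_csInf (Set.Nonempty.image _ ⟨θ, hθ⟩)
      rintro _ ⟨ψ, hψ, rfl⟩
      exact hlow ψ hψ
  have hdefect : blockDefect p e
      = (Nat.card ↥(Q ⊓ Subgroup.centralizer (Q : Set G))).factorization p := by
    unfold blockDefect
    rw [hsInf]
    omega
  obtain ⟨k, hk⟩ := IsPGroup.iff_card.mp (hQ.to_le (inf_le_left :
    Q ⊓ Subgroup.centralizer (Q : Set G) ≤ Q))
  have hcardD : ∀ D : Subgroup (Subgroup.centralizer (Q : Set G)), IsDefectGroup p M e D →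
      Nat.card D = Nat.card (centreSub Q) := by
    intro D hD
    have h1 := card_defectGroup hM θ D (by rw [← heθ]; exact hD)
    rw [← heθ, hdefect, hk, hp.factorization_pow, Finsupp.single_eq_same] at h1
    rw [h1, card_centreSub, hk]
  refine ⟨hB, fun R g hRg hle => ?_⟩
  by_contra hne
  have hQR : Q ≤ R := subpairLE_le hle
  have hR : IsPGroup p R := hRg.1.1
  obtain ⟨Q₁, hlt, hQ₁R, hQ₁N⟩ := exists_normalizing_lt R Q hR hQR (fun h => hne h.symm)
  obtain ⟨g₁, hg₁, hle₁⟩ := exists_subpairLE hM R g hRg.1 _ Q₁ hQ₁R rfl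
  obtain ⟨f, hf, -⟩ := Cfsg.Agent.S4656.result p M hM Q₁ Q g₁ ⟨hR.to_le hQ₁R, hg₁⟩ hlt.le hQ₁N
  have hstep : NormalSubpairRel p M ⟨Q, f⟩ ⟨Q₁, g₁⟩ := hf
  have hfe : f = e := subpairLE_unique hM _ R g rfl hRg.1 Q f e
    (Relation.ReflTransGen.head hstep hle₁) hle
  rw [hfe] at hf
  obtain ⟨D, hD, hDle⟩ := exists_defectGroup_ge_centralizer p hM hRg.1 hle
  have hDeq : centreSub Q = D := by
    apply Subgroup.eq_of_le_of_card_ge
    · intro z hz
      apply hDle
      rw [Subgroup.mem_subgroupOf] at hz ⊢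
      exact ⟨hQR hz.1, hz.2⟩
    · exact (hcardD D hD).le
  have hQN : Q ≤ Subgroup.normalizer ((Subgroup.centralizer (Q : Set G) : Subgroup G) : Set G) :=
    Subgroup.le_normalizer.trans (normalizer_le_normalizer_centralizer Q)
  have hQ₁Q : Q₁ ≤ Q := by
    intro x hx
    have hxord : ∃ k : ℕ, orderOf x = p ^ k := by
      obtain ⟨k, hk⟩ := (IsPGroup.iff_orderOf.mp hR) ⟨x, hQ₁R hx⟩
      exact ⟨k, by rw [← hk, ← Subgroup.orderOf_coe]⟩
    have hxsup := hstab x (hQ₁N hx) (hf.2.2.2.2.1 x hx) hxord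
    obtain ⟨u, hu, c, hc, rfl⟩ := exists_mul_of_mem_sup hQN hxsup
    have hcR : c ∈ R := by
      have h1 : u⁻¹ * (u * c) ∈ R := R.mul_mem (R.inv_mem (hQR hu)) (hQ₁R hx)
      rwa [inv_mul_cancel_left] at h1
    have hcD : (⟨c, hc⟩ : Subgroup.centralizer (Q : Set G)) ∈ D := by
      apply hDle
      rw [Subgroup.mem_subgroupOf]
      exact ⟨hcR, hc⟩
    rw [← hDeq, Subgroup.mem_subgroupOf] at hcD
    exact Q.mul_mem hu hcD.1
  exact absurd (lt_of_lt_of_le hlt hQ₁Q) (lt_irrefl _)

end Main

end Cfsg.Agent.H80
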