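import Cfsg.Agent.S0925
import Cfsg.Agent.Lib.Clifford
import Cfsg.Agent.H79.PElementCongr
import Cfsg.Agent.H84.BrauerIV
import Cfsg.Agent.H80.Block

/-!
# helper80: characters of a block over a character of a normal subgroup

Let `N` be a normal subgroup of `G`, `θ` an irreducible character of `N`, `x` a `p`-element
outside `N` and `B` a block.  The class function induced from `θ` vanishes on the `p`-section of
`x`, hence so does its `B`-part; reading this modulo the maximal ideal gives
`p ∣ ∑_{χ ∈ B} [χ|N, θ] χ(1)`.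

* `indFun_eq_zero_of_not_mem`: a function induced from a normal subgroup vanishes outside it.
* `exists_mult_dvd_sum`: the congruence, with Clifford's degree formula.
-/

namespace Cfsg.Agent.H80

open Cfsg Cfsg.Agent.H20 Cfsg.Agent.H4
open scoped ComplexConjugate

universe u

section

variable {G : Type u} [Group G] [Fintype G]

theorem indFun_eq_zero_of_not_mem (N : Subgroup G) [hN : N.Normal] (θ : N → ℂ) {g : G}
    (hg : g ∉ N) : indFun N θ g = 0 := by
  rw [indFun_apply]
  have h : ∀ y : G, extendByZero N θ (y⁻¹ * g * y) = 0 := by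
    intro y
    apply extendByZero_of_not_mem
    intro h
    apply hg
    have h1 := hN.conj_mem _ h y
    have e : y * (y⁻¹ * g * y) * y⁻¹ = g := by group
    rwa [e] at h1
  rw [Finset.sum_eq_zero (fun y _ => h y), mul_zero]

/-- The value at `x` of the `B`-part of the class function induced from `θ`. -/
theorem blockPart_indFun_eq_zero {p : ℕ} [Fact p.Prime] {M : Ideal AlgInt} (hM : IsPModular p M)
    (N : Subgroup G) [hN : N.Normal] (θ : N → ℂ) (x : G) (hx : ∃ k : ℕ, orderOf x = p ^ k)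
    (hxN : x ∉ N) (B : Set (IrrCharacter G)) (hB : IsPBlock M B) :
    ∑ᶠ χ ∈ B, classInner (indFun N θ) (χ : G → ℂ) * (χ : G → ℂ) x = 0 := by
  classical
  have hp : p.Prime := hM.1
  have hvan : ∀ u z : G, IsPPart p u z → IsConj x z → indFun N θ u = 0 := by
    intro u z hu hz
    apply indFun_eq_zero_of_not_mem
    intro huN
    obtain ⟨m, hm⟩ := Cfsg.Agent.H84.exists_pow_eq_of_isPPart hp hu
    have hzN : z ∈ N := by rw [← hm]; exact N.pow_mem huN m
    obtain ⟨c, hc⟩ := isConj_iff.mp hz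
    apply hxN
    have h1 := hN.conj_mem z hzN c⁻¹
    rw [← hc] at h1
    have e : c⁻¹ * (c * x * c⁻¹) * c⁻¹⁻¹ = x := by group
    rwa [e] at h1
  have h := (Cfsg.Agent.S0925.result p M hM).1 (indFun N θ) (indFun_isClassFunction N θ) x hx hvan
    B hB x x (Cfsg.Agent.H84.isPPart_self hp hx) (IsConj.refl x)
  have hinst : Fintype.ofFinite G = ‹Fintype G› := Subsingleton.elim _ _
  unfold blockPart at h
  rw [hinst] at h
  exact h

open Cfsg.Agent.Clifford in
/-- The sum of the conjugates of `θ` takes a natural number value at `1`. -/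
theorem exists_orbit_sum_one (N : Subgroup G) [hN : N.Normal] (θ : IrrCharacter N) :
    ∃ s : ℕ, (∑ᶠ ψ ∈ {ψ : N → ℂ | ∃ g : G, ψ = conjChar N (θ : N → ℂ) g}, ψ) 1 = (s : ℂ) := by
  classical
  have hfin : {ψ : N → ℂ | ∃ g : G, ψ = conjChar N (θ : N → ℂ) g}.Finite := by
    have : {ψ : N → ℂ | ∃ g : G, ψ = conjChar N (θ : N → ℂ) g}
        = Set.range (fun g : G => conjChar N (θ : N → ℂ) g) := by
      ext ψ; constructor
      · rintro ⟨g, rfl⟩; exact ⟨g, rfl⟩
      · rintro ⟨g, rfl⟩; exact ⟨g, rfl⟩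
    rw [this]; exact Set.finite_range _
  refine ⟨hfin.toFinset.card * charDegree (θ : N → ℂ), ?_⟩
  rw [finsum_mem_eq_finite_toFinset_sum _ hfin, Finset.sum_apply]
  have h1 : ∀ ψ ∈ hfin.toFinset, ψ 1 = (charDegree (θ : N → ℂ) : ℂ) := by
    intro ψ hψ
    rw [Set.Finite.mem_toFinset] at hψ
    obtain ⟨g, rfl⟩ := hψ
    rw [conjChar_apply, ← Cfsg.Agent.H82.irr_one_eq_charDegree θ]
    exact congrArg _ (Subtype.ext (by simp))
  rw [Finset.sum_congr rfl h1, Finset.sum_const, nsmul_eq_mul, Nat.cast_mul]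

open Cfsg.Agent.Clifford in
open scoped Classical in
/-- For a `p`-element `x` outside the normal subgroup `N` and a block `B`: the multiplicities
`e χ = [χ|N, θ]` satisfy Clifford's degree formula `χ(1) = e χ * s` and
`p ∣ ∑_{χ ∈ B} e χ * χ(1)`. -/
theorem exists_mult_dvd_sum {p : ℕ} [Fact p.Prime] {M : Ideal AlgInt} (hM : IsPModular p M)
    (N : Subgroup G) [hN : N.Normal] [Fintype N] (θ : IrrCharacter N) (x : G)
    (hx : ∃ k : ℕ, orderOf x = p ^ k) (hxN : x ∉ N) (B : Set (IrrCharacter G))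
    (hB : IsPBlock M B) :
    ∃ (e : IrrCharacter G → ℕ) (s : ℕ),
      (∀ χ : IrrCharacter G, classInner (fun n : N => (χ : G → ℂ) n) (θ : N → ℂ) = (e χ : ℂ)) ∧
      (∀ χ : IrrCharacter G, e χ ≠ 0 → charDegree (χ : G → ℂ) = e χ * s) ∧
      p ∣ ∑ χ ∈ (@Finset.univ _ (fintypeIrr G)).filter (fun χ => χ ∈ B),
        e χ * charDegree (χ : G → ℂ) := by
  let _ : Fintype (IrrCharacter G) := fintypeIrr G
  have hMp := isPrime_of_isPModular hM
  have hθc : IsCharacter N (θ : N → ℂ) := isCharacter_of_isIrrCharacter θ.2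
  have hind : IsCharacter G (indFun N (θ : N → ℂ)) := isCharacter_indFun N _ hθc
  have h1 : ∀ χ : IrrCharacter G, ∃ n : ℕ, classInner (indFun N (θ : N → ℂ)) (χ : G → ℂ) = n :=
    fun χ => classInner_isCharacter_nat hind (isCharacter_of_isIrrCharacter χ.2)
  choose e he using h1
  obtain ⟨s, hs⟩ := exists_orbit_sum_one N θ
  have hχc : ∀ χ : IrrCharacter G, IsClassFunction G (χ : G → ℂ) := fun χ =>
    isClassFunction_of_isCharacter (isCharacter_of_isIrrCharacter χ.2)
  have he' : ∀ χ : IrrCharacter G,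
      classInner (fun n : N => (χ : G → ℂ) n) (θ : N → ℂ) = (e χ : ℂ) := by
    intro χ
    rw [← classInner_conj_symm, ← frobenius_reciprocity N (θ : N → ℂ) (χ : G → ℂ) (hχc χ), he,
      Complex.conj_natCast]
  refine ⟨e, s, he', ?_, ?_⟩
  · intro χ hχ
    have hne : classInner (fun n : N => (χ : G → ℂ) n) (θ : N → ℂ) ≠ 0 := by
      rw [he']; exact_mod_cast hχ
    have h2 := congrFun (clifford_res N χ.2 θ.2 hne) 1
    rw [Pi.smul_apply, hs, he', smul_eq_mul] at h2
    have h3 : (χ : G → ℂ) ((1 : N) : G) = (charDegree (χ : G → ℂ) : ℂ) := by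
      rw [Subgroup.coe_one]; exact Cfsg.Agent.H82.irr_one_eq_charDegree χ
    rw [h3] at h2
    exact_mod_cast h2
  · rw [← memLocalIdeal_natCast_iff hM]
    have h0 := blockPart_indFun_eq_zero hM N (θ : N → ℂ) x hx hxN B hB
    rw [finsum_mem_irr] at h0
    obtain ⟨k, hk⟩ := hx
    have hxk : x ^ (p ^ k) = 1 := by rw [← hk]; exact pow_orderOf_eq_one x
    have h4 : ((∑ χ ∈ Finset.univ.filter (fun χ : IrrCharacter G => χ ∈ B),
        e χ * charDegree (χ : G → ℂ) : ℕ) : ℂ)
        = ∑ χ ∈ Finset.univ.filter (fun χ : IrrCharacter G => χ ∈ B),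
          (e χ : ℂ) * ((χ : G → ℂ) 1 - (χ : G → ℂ) x) := by
      have h5 : ∑ χ ∈ Finset.univ.filter (fun χ : IrrCharacter G => χ ∈ B),
          (e χ : ℂ) * (χ : G → ℂ) x = 0 := by
        refine Eq.trans ?_ h0
        rw [Finset.sum_filter]
        apply Finset.sum_congr rfl
        intro χ _
        rw [he]
      simp only [mul_sub]
      rw [Finset.sum_sub_distrib, h5, sub_zero, Nat.cast_sum]
      apply Finset.sum_congr rfl
      intro χ _
      rw [Nat.cast_mul, Cfsg.Agent.H82.irr_one_eq_charDegree χ]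
    rw [h4]
    apply memLocalIdeal_sum hMp
    intro χ _
    apply memLocalIdeal_mul_left hMp (memLocalRing_natCast hMp (e χ))
    have h6 := Cfsg.Agent.H79.char_mul_sub_memLocalIdeal hM (isCharacter_of_isIrrCharacter χ.2)
      x 1 (Commute.one_right x) k hxk
    rw [mul_one] at h6
    have h7 := memLocalIdeal_neg h6
    rwa [neg_sub] at h7

end

end Cfsg.Agent.H80
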