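import Mathlib
import Cfsg.Agent.H98.PSLkDefs

/-!
# The invariant configuration for `n = 2` (team piece S2480-INV2)
-/

set_option autoImplicit false

namespace Cfsg.Agent.H80.PSLk

open Polynomial DirectSum
open Cfsg.Agent.H98.GLk Cfsg.Agent.H98.SLk

theorem inv_two {F : Type*} [Field F] (ζ : Fˣ) (hζ1 : ζ ≠ 1) (hζ : ζ ^ 2 = 1)
    (g : Fin 2 → F[X]) (hg : g ∈ Conf F 2 2) (hsc : sc ζ g = g) (hdet : cdet g = 1) :
    g 0 = X ^ 2 + 1 ∧ g 1 = 1 := by
  obtain ⟨hmon, hsum⟩ := hg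
  rw [Fin.sum_univ_two] at hsum
  simp only [Fin.val_zero, Fin.val_one, zero_add, one_mul] at hsum
  have hζF : (ζ : F) ≠ 1 := by
    intro h
    apply hζ1
    exact Units.ext h
  have hinv : ∀ i, (g i).scaleRoots (ζ : F) = g i := fun i => congrFun hsc i
  have hcoef : ∀ i k, (g i).coeff k * (ζ : F) ^ ((g i).natDegree - k) = (g i).coeff k := by
    intro i k
    have h := congrArg (fun p => p.coeff k) (hinv i)
    simpa [coeff_scaleRoots] using h
  have hkill : ∀ c : F, c * (ζ : F) = c → c = 0 := by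
    intro c hc
    have h3 : c * ((ζ : F) - 1) = 0 := by rw [mul_sub, hc, mul_one, sub_self]
    rcases mul_eq_zero.mp h3 with h4 | h4
    · exact h4
    · exact absurd (sub_eq_zero.mp h4) hζF
  have hd1 : (g 1).natDegree = 0 := by
    by_contra h
    have h1 : (g 1).natDegree = 1 := by omega
    have h2 := hcoef 1 0
    rw [h1] at h2
    simp only [Nat.sub_zero, pow_one] at h2
    exact (hmon 1).2 (hkill _ h2)
  have hd0 : (g 0).natDegree = 2 := by omega
  have hg1 : g 1 = 1 := Polynomial.eq_one_of_monic_natDegree_zero (hmon 1).1 hd1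
  have hc1 : (g 0).coeff 1 = 0 := by
    have h2 := hcoef 0 1
    rw [hd0] at h2
    simp only [show 2 - 1 = 1 from rfl, pow_one] at h2
    exact hkill _ h2
  have hc0 : (g 0).coeff 0 = 1 := by
    rw [cdet_def, Fin.prod_univ_two, hg1, hd0] at hdet
    simpa using hdet
  have hc2 : (g 0).coeff 2 = 1 := by
    have h := (hmon 0).1
    rw [Polynomial.Monic, Polynomial.leadingCoeff, hd0] at h
    exact h
  refine ⟨?_, hg1⟩
  ext k
  rcases k with _ | _ | _ | k
  · simp [hc0]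
  · simp [hc1, Polynomial.coeff_X_pow, Polynomial.coeff_one]
  · simp [hc2, Polynomial.coeff_X_pow, Polynomial.coeff_one]
  · rw [Polynomial.coeff_eq_zero_of_natDegree_lt (by omega)]
    simp [Polynomial.coeff_X_pow, Polynomial.coeff_one]

example {F : Type*} [Field F] (ζ : Fˣ) (hζ1 : ζ ≠ 1) (hζ : ζ ^ 2 = 1)
    (g : Fin 2 → F[X]) (hg : g ∈ Conf F 2 2) (hsc : sc ζ g = g) (hdet : cdet g = 1) :
    g 0 = X ^ 2 + 1 ∧ g 1 = 1 := inv_two ζ hζ1 hζ g hg hsc hdet

end Cfsg.Agent.H80.PSLk
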