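import Mathlib

/-!
# The module of `ζ • A` (team piece S2480-SCDEC)

If the `F[X]`-module of a matrix `A` is `⨁ F[X] ⧸ (p i ^ e i)`, then the module of `ζ • A` is
`⨁ F[X] ⧸ ((p i).scaleRoots ζ ^ e i)`.
-/

set_option autoImplicit false

namespace Cfsg.Agent.H80.PSLk

open Polynomial DirectSum

/-- The substitution `X ↦ ζ⁻¹ X` as an algebra automorphism of `F[X]`. -/
noncomputable def substInv {F : Type*} [Field F] (ζ : Fˣ) : F[X] ≃ₐ[F] F[X] :=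
  AlgEquiv.ofAlgHom (aeval (C ((ζ⁻¹ : Fˣ) : F) * X)) (aeval (C (ζ : F) * X))
    (by ext; simp [← mul_assoc, ← C_mul]) (by ext; simp [← mul_assoc, ← C_mul])

theorem substInv_apply {F : Type*} [Field F] (ζ : Fˣ) (f : F[X]) :
    substInv ζ f = f.comp (C ((ζ⁻¹ : Fˣ) : F) * X) := rfl

theorem substInv_X {F : Type*} [Field F] (ζ : Fˣ) :
    substInv ζ X = C ((ζ⁻¹ : Fˣ) : F) * X := by
  rw [substInv_apply, X_comp]

theorem substInv_coeff {F : Type*} [Field F] (ζ : Fˣ) (f : F[X]) (i : ℕ) :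
    (substInv ζ f).coeff i = f.coeff i * ((ζ⁻¹ : Fˣ) : F) ^ i := by
  rw [substInv_apply, comp_C_mul_X_coeff]

theorem substInv_eq {F : Type*} [Field F] (ζ : Fˣ) (p : F[X]) :
    substInv ζ p = C (((ζ⁻¹ : Fˣ) : F) ^ p.natDegree) * p.scaleRoots (ζ : F) := by
  ext i
  rw [substInv_coeff, coeff_C_mul, coeff_scaleRoots]
  by_cases hi : i ≤ p.natDegree
  · have h : ((ζ⁻¹ : Fˣ) : F) ^ p.natDegree * (ζ : F) ^ (p.natDegree - i) =
        ((ζ⁻¹ : Fˣ) : F) ^ i := by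
      obtain ⟨j, hj⟩ := Nat.exists_eq_add_of_le hi
      rw [hj, Nat.add_sub_cancel_left, pow_add, mul_assoc, ← mul_pow, Units.inv_mul, one_pow,
        mul_one]
    rw [← h]
    ring
  · rw [coeff_eq_zero_of_natDegree_lt (by omega)]
    simp

theorem span_scaleRoots_pow {F : Type*} [Field F] (ζ : Fˣ) (p : F[X]) (e : ℕ) :
    Ideal.span {(p.scaleRoots (ζ : F)) ^ e} =
      (Ideal.span {p ^ e}).map ((substInv ζ : F[X] ≃ₐ[F] F[X]) : F[X] →+* F[X]) := by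
  rw [Ideal.map_span, Set.image_singleton]
  have h : ((substInv ζ : F[X] ≃ₐ[F] F[X]) : F[X] →+* F[X]) (p ^ e) =
      C ((((ζ⁻¹ : Fˣ) : F) ^ p.natDegree) ^ e) * (p.scaleRoots (ζ : F)) ^ e := by
    change substInv ζ (p ^ e) = _
    rw [map_pow, substInv_eq, mul_pow, ← C_pow]
  rw [h, Ideal.span_singleton_mul_left_unit]
  exact isUnit_C.mpr (IsUnit.pow _ (IsUnit.pow _ (Units.isUnit _)))


/-- The `F`-linear equivalence `F[X] ⧸ (p ^ e) ≃ F[X] ⧸ (p.scaleRoots ζ ^ e)` induced by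
`X ↦ ζ⁻¹ X`. -/
noncomputable def quotEquiv {F : Type*} [Field F] (ζ : Fˣ) (p : F[X]) (e : ℕ) :
    (F[X] ⧸ F[X] ∙ p ^ e) ≃ₗ[F] (F[X] ⧸ F[X] ∙ (p.scaleRoots (ζ : F)) ^ e) :=
  (Ideal.quotientEquivAlg (Ideal.span {p ^ e}) (Ideal.span {(p.scaleRoots (ζ : F)) ^ e})
    (substInv ζ) (span_scaleRoots_pow ζ p e)).toLinearEquiv

theorem quotEquiv_mk {F : Type*} [Field F] (ζ : Fˣ) (p : F[X]) (e : ℕ) (f : F[X]) :
    quotEquiv ζ p e (Submodule.Quotient.mk f) = Submodule.Quotient.mk (substInv ζ f) := rfl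

theorem quotEquiv_X_smul {F : Type*} [Field F] (ζ : Fˣ) (p : F[X]) (e : ℕ)
    (x : F[X] ⧸ F[X] ∙ p ^ e) :
    quotEquiv ζ p e ((X : F[X]) • x) = ((ζ⁻¹ : Fˣ) : F) • ((X : F[X]) • quotEquiv ζ p e x) := by
  induction x using Submodule.Quotient.induction_on with
  | H f =>
    rw [← Submodule.Quotient.mk_smul, quotEquiv_mk, quotEquiv_mk, ← Submodule.Quotient.mk_smul,
      ← Submodule.Quotient.mk_smul, smul_eq_mul, smul_eq_mul, map_mul, substInv_X,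
      smul_eq_C_mul, mul_assoc]

theorem exists_decomp_scalar {F : Type*} [Field F] {n : ℕ} (A : Matrix (Fin n) (Fin n) F)
    (ζ : Fˣ) (k : ℕ) (p : Fin k → F[X]) (e : Fin k → ℕ)
    (l : Module.AEval' (Matrix.toLin' A) ≃ₗ[F[X]] ⨁ i : Fin k, F[X] ⧸ F[X] ∙ p i ^ e i) :
    Nonempty (Module.AEval' (Matrix.toLin' ((ζ : F) • A)) ≃ₗ[F[X]]
      ⨁ i : Fin k, F[X] ⧸ F[X] ∙ ((p i).scaleRoots (ζ : F)) ^ e i) := by
  classical
  obtain ⟨φ, hφ⟩ : ∃ φ, φ = Matrix.toLin' A := ⟨_, rfl⟩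
  rw [← hφ] at l
  -- the `F`-linear equivalence attached to `l`
  let E : (Fin n → F) ≃ₗ[F] ⨁ i : Fin k, F[X] ⧸ F[X] ∙ p i ^ e i :=
    (Module.AEval'.of φ).trans (l.restrictScalars F)
  have hE : ∀ v, E (φ v) = (X : F[X]) • E v := by
    intro v
    show l (Module.AEval'.of φ (φ v)) = (X : F[X]) • l (Module.AEval'.of φ v)
    rw [← Module.AEval'.X_smul_of, map_smul]
  -- the componentwise twist
  let T : (⨁ i : Fin k, F[X] ⧸ F[X] ∙ p i ^ e i) ≃ₗ[F]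
      ⨁ i : Fin k, F[X] ⧸ F[X] ∙ ((p i).scaleRoots (ζ : F)) ^ e i :=
    DFinsupp.mapRange.linearEquiv (fun i => quotEquiv ζ (p i) (e i))
  have hT : ∀ m, T ((X : F[X]) • m) = ((ζ⁻¹ : Fˣ) : F) • ((X : F[X]) • T m) := by
    intro m
    apply DFinsupp.ext
    intro i
    show quotEquiv ζ (p i) (e i) ((X : F[X]) • m i) =
      ((ζ⁻¹ : Fˣ) : F) • ((X : F[X]) • quotEquiv ζ (p i) (e i) (m i))
    exact quotEquiv_X_smul ζ (p i) (e i) (m i)
  have hET : ∀ v, (E.trans T) ((Matrix.toLin' ((ζ : F) • A)) v) =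
      (X : F[X]) • (E.trans T) v := by
    intro v
    have h1 : (Matrix.toLin' ((ζ : F) • A)) v = (ζ : F) • φ v := by
      rw [hφ, map_smul, LinearMap.smul_apply]
    rw [h1, map_smul]
    show (ζ : F) • T (E (φ v)) = (X : F[X]) • T (E v)
    rw [hE, hT, smul_smul, Units.mul_inv, one_smul]
  exact ⟨LinearEquiv.ofAEval (Matrix.toLin' ((ζ : F) • A)) (E.trans T) hET⟩

example {F : Type*} [Field F] {n : ℕ} (A : Matrix (Fin n) (Fin n) F)
    (ζ : Fˣ) (k : ℕ) (p : Fin k → F[X]) (e : Fin k → ℕ)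
    (l : Module.AEval' (Matrix.toLin' A) ≃ₗ[F[X]] ⨁ i : Fin k, F[X] ⧸ F[X] ∙ p i ^ e i) :
    Nonempty (Module.AEval' (Matrix.toLin' ((ζ : F) • A)) ≃ₗ[F[X]]
      ⨁ i : Fin k, F[X] ⧸ F[X] ∙ ((p i).scaleRoots (ζ : F)) ^ e i) :=
  exists_decomp_scalar A ζ k p e l

end Cfsg.Agent.H80.PSLk
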