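import Mathlib
/-!
S3641-N3 (team project of helper21; helper80): a transitive permutation group of degree 18 and
order `18 * 17 * d` (`d = 8` or `16`) containing an element of order 9, whose number of Sylow
3-subgroups divides 136, has exactly 136 Sylow 3-subgroups.

Proof: `R = ⟨x⟩` is a Sylow 3-subgroup, semiregular with two orbits.  No element of order 17
centralizes `x` (it would have a fixed point, hence at least two, hence be trivial), and no
subgroup of order 4 centralizes `x` (some `t ≠ 1` of it would fix a point, hence both orbits of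
`x` pointwise).  So `|C(R)|` is prime to 17 and not divisible by 4, `|N(R) : C(R)|` divides 6,
and the count follows.
-/
set_option autoImplicit false

namespace Cfsg.Agent.H80.SN

open Subgroup

/-- At most two orbits for a semiregular element of order 9 on 18 points. -/
theorem orbit_bound {α : Type*} [Fintype α] (hα : Fintype.card α = 18)
    (H : Subgroup (Equiv.Perm α)) (x : H) (hx9 : x ^ 9 = 1)
    (hsemi : ∀ (m : ℕ) (b : α), (x ^ m) • b = b → 9 ∣ m)
    {ι : Type*} [Fintype ι] (c : ι → α)
    (hc : ∀ i j : ι, i ≠ j → ∀ m : ℕ, (x ^ m) • c j ≠ c i) : Fintype.card ι ≤ 2 := by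
  have hinj : Function.Injective (fun p : ι × Fin 9 => (x ^ (p.2 : ℕ)) • c p.1) := by
    rintro ⟨i, m⟩ ⟨j, m'⟩ h
    have hm := m.2
    have hm' := m'.2
    have h1 : (x ^ (m : ℕ)) • c i = (x ^ (m' : ℕ)) • c j := h
    have h2 : c i = (x ^ (9 - (m : ℕ) + (m' : ℕ))) • c j := by
      have h3 : (x ^ (9 - (m : ℕ))) • ((x ^ (m : ℕ)) • c i) =
          (x ^ (9 - (m : ℕ))) • ((x ^ (m' : ℕ)) • c j) := by rw [h1]
      rw [smul_smul, smul_smul, ← pow_add, ← pow_add, Nat.sub_add_cancel (by omega), hx9,
        one_smul] at h3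
      exact h3
    by_cases hij : i = j
    · subst hij
      have h3 := hsemi _ _ h2.symm
      have h4 : (m : ℕ) = (m' : ℕ) := by omega
      exact Prod.ext rfl (Fin.ext h4)
    · exact absurd h2.symm (hc i j hij _)
  have h := Fintype.card_le_of_injective _ hinj
  rw [Fintype.card_prod, Fintype.card_fin, hα] at h
  omega

theorem card_sylow_three {α : Type*} [Fintype α] [DecidableEq α] (hα : Fintype.card α = 18)
    (H : Subgroup (Equiv.Perm α)) [MulAction.IsPretransitive H α] (d : ℕ)
    (hd : d = 8 ∨ d = 16) (hH : Nat.card H = 18 * 17 * d) (x : H) (hx : orderOf x = 9)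
    (hdvd : Nat.card (Sylow 3 H) ∣ 136) : Nat.card (Sylow 3 H) = 136 := by
  classical
  have hx9 : x ^ 9 = 1 := by rw [← hx]; exact pow_orderOf_eq_one x
  have hgcd : Nat.gcd 9 (17 * d) = 1 := by rcases hd with rfl | rfl <;> decide
  have hfinH : Finite H := inferInstance
  -- point stabilizers
  have hstab : ∀ b : α, Nat.card (MulAction.stabilizer H b) = 17 * d := by
    intro b
    have h1 := Subgroup.card_mul_index (MulAction.stabilizer H b)
    rw [MulAction.index_stabilizer_of_transitive, Nat.card_eq_fintype_card (α := α), hα, hH] at h1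
    omega
  have hfix1 : ∀ (g : H) (b : α), g • b = b → orderOf g ∣ 17 * d := by
    intro g b hg
    rw [← hstab b]
    exact Subgroup.orderOf_dvd_natCard _ (MulAction.mem_stabilizer_iff.mpr hg)
  have hsemi : ∀ (m : ℕ) (b : α), (x ^ m) • b = b → 9 ∣ m := by
    intro m b h
    have h1 := hfix1 _ b h
    have h2 : orderOf (x ^ m) ∣ 9 := by rw [← hx]; exact orderOf_pow_dvd m
    have h3 : orderOf (x ^ m) ∣ 1 := by rw [← hgcd]; exact Nat.dvd_gcd h2 h1
    have h4 : x ^ m = 1 := orderOf_eq_one_iff.mp (Nat.dvd_one.mp h3)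
    rw [← hx]; exact orderOf_dvd_of_pow_eq_one h4
  -- a 2-element commuting with `x` and mapping `b` into its `⟨x⟩`-orbit fixes `b`
  have hA : ∀ (t : H), t * x = x * t → t ^ 4 = 1 → ∀ (b : α) (j : ℕ),
      t • b = (x ^ j) • b → t • b = b := by
    intro t htx ht4 b j hj
    have hcomm : ∀ n : ℕ, t * x ^ n = x ^ n * t := fun n =>
      (Commute.pow_right (show Commute t x from htx) n).eq
    have hk : ∀ k : ℕ, (t ^ k) • b = (x ^ (k * j)) • b := by
      intro k
      induction k with
      | zero => simp
      | succ k ih =>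
        rw [pow_succ', mul_smul, ih, smul_smul, hcomm, ← smul_smul, hj, smul_smul, ← pow_add]
        congr 2; ring
    have h4 := hk 4
    rw [ht4, one_smul] at h4
    have h9 := hsemi _ _ h4.symm
    have h9' : 9 ∣ j := by omega
    obtain ⟨k, rfl⟩ := h9'
    rw [hj, pow_mul, hx9, one_pow, one_smul]
  -- the Sylow 3-subgroup
  have hfact : (Nat.card H).factorization 3 = 2 := by
    have hn0 : Nat.card H ≠ 0 := by rw [hH]; rcases hd with rfl | rfl <;> norm_num
    have h1 : 2 ≤ (Nat.card H).factorization 3 := by
      rw [← Nat.Prime.pow_dvd_iff_le_factorization Nat.prime_three hn0, hH]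
      rcases hd with rfl | rfl <;> norm_num
    have h2 : ¬ 3 ≤ (Nat.card H).factorization 3 := by
      rw [← Nat.Prime.pow_dvd_iff_le_factorization Nat.prime_three hn0, hH]
      rcases hd with rfl | rfl <;> norm_num
    omega
  have hR9 : Nat.card (Subgroup.zpowers x) = 9 := by rw [Nat.card_zpowers, hx]
  have hn : Nat.card (Sylow 3 H) *
      Nat.card (Subgroup.normalizer ((Subgroup.zpowers x : Subgroup H) : Set H)) = Nat.card H := by
    obtain ⟨P, hP⟩ : ∃ P : Sylow 3 H, (P : Subgroup H) = Subgroup.zpowers x :=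
      ⟨Sylow.ofCard (Subgroup.zpowers x) (by rw [hR9, hfact]; norm_num), Sylow.coe_ofCard _ _⟩
    have hP' : (P : Set H) = ((Subgroup.zpowers x : Subgroup H) : Set H) := by rw [← hP]; rfl
    rw [Sylow.card_eq_index_normalizer P, hP', mul_comm]
    exact Subgroup.card_mul_index _
  have hmod : Nat.card (Sylow 3 H) ≡ 1 [MOD 3] := card_sylow_modEq_one 3 H
  -- N/C
  have hCN : Subgroup.centralizer ((Subgroup.zpowers x : Subgroup H) : Set H) ≤
      Subgroup.normalizer ((Subgroup.zpowers x : Subgroup H) : Set H) :=
    Subgroup.centralizer_le_normalizer _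
  have hrel : (Subgroup.centralizer ((Subgroup.zpowers x : Subgroup H) : Set H)).relIndex
      (Subgroup.normalizer ((Subgroup.zpowers x : Subgroup H) : Set H)) ∣ 6 := by
    have key := Subgroup.card_dvd_of_injective _
      (QuotientGroup.kerLift_injective (Subgroup.zpowers x : Subgroup H).normalizerMonoidHom)
    rw [Subgroup.normalizerMonoidHom_ker, ← Subgroup.index, ← Subgroup.relIndex] at key
    rw [IsCyclic.card_mulAut, hR9] at key
    have h6 : Nat.totient 9 = 6 := by decide
    rwa [h6] at key
  have hNC : Nat.card (Subgroup.centralizer ((Subgroup.zpowers x : Subgroup H) : Set H)) *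
      (Subgroup.centralizer ((Subgroup.zpowers x : Subgroup H) : Set H)).relIndex
        (Subgroup.normalizer ((Subgroup.zpowers x : Subgroup H) : Set H)) =
      Nat.card (Subgroup.normalizer ((Subgroup.zpowers x : Subgroup H) : Set H)) := by
    have h1 := Subgroup.card_mul_index
      ((Subgroup.centralizer ((Subgroup.zpowers x : Subgroup H) : Set H)).subgroupOf
        (Subgroup.normalizer ((Subgroup.zpowers x : Subgroup H) : Set H)))
    rw [Nat.card_congr (Subgroup.subgroupOfEquivOfLe hCN).toEquiv] at h1
    exact h1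
  have hcx : ∀ g ∈ Subgroup.centralizer ((Subgroup.zpowers x : Subgroup H) : Set H),
      g * x = x * g := by
    intro g hg
    exact (Subgroup.mem_centralizer_iff.mp hg x (Subgroup.mem_zpowers x)).symm
  have hfaith : ∀ g : H, (∀ b : α, g • b = b) → g = 1 := by
    intro g hg
    apply Subtype.ext
    apply Equiv.ext
    intro b
    exact hg b
  -- (a) no element of order 17 centralizes `x`
  have h17 : ¬ 17 ∣ Nat.card (Subgroup.centralizer ((Subgroup.zpowers x : Subgroup H) : Set H)) := by
    intro h
    have : Fact (Nat.Prime 17) := ⟨by norm_num⟩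
    obtain ⟨y0, hy0⟩ := exists_prime_orderOf_dvd_card' 17 h
    have hy17 : orderOf (y0 : H) = 17 := by rw [Subgroup.orderOf_coe]; exact hy0
    have hyx : (y0 : H) * x = x * (y0 : H) := hcx _ y0.2
    generalize (y0 : H) = y at hy17 hyx
    have hpg : IsPGroup 17 (Subgroup.zpowers y) :=
      IsPGroup.of_card (n := 1) (by rw [Nat.card_zpowers, hy17, pow_one])
    have hmodE := hpg.card_modEq_card_fixedPoints α
    have hne : (MulAction.fixedPoints (Subgroup.zpowers y) α).Nonempty :=
      hpg.nonempty_fixed_point_of_prime_not_dvd_card α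
        (by rw [Nat.card_eq_fintype_card, hα]; norm_num)
    obtain ⟨a, ha⟩ := hne
    have hya : ∀ b ∈ MulAction.fixedPoints (Subgroup.zpowers y) α, y • b = b := by
      intro b hb
      exact hb ⟨y, Subgroup.mem_zpowers y⟩
    have hxa : x • a ∈ MulAction.fixedPoints (Subgroup.zpowers y) α := by
      rintro ⟨g, hg⟩
      obtain ⟨k, rfl⟩ := Subgroup.mem_zpowers_iff.mp hg
      show (y ^ k) • (x • a) = x • a
      have hc : (y ^ k) * x = x * (y ^ k) := (Commute.zpow_left (show Commute y x from hyx) k).eq
      rw [smul_smul, hc, ← smul_smul]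
      congr 1
      exact ha ⟨y ^ k, hg⟩
    have hxa_ne : x • a ≠ a := by
      intro h1
      have := hsemi 1 a (by rw [pow_one]; exact h1)
      omega
    have h2 : 2 ≤ (MulAction.fixedPoints (Subgroup.zpowers y) α).ncard := by
      rw [← Set.ncard_pair hxa_ne]
      refine Set.ncard_le_ncard ?_ (Set.toFinite _)
      intro b hb
      rcases hb with rfl | rfl
      · exact hxa
      · exact ha
    have h18 : (MulAction.fixedPoints (Subgroup.zpowers y) α).ncard ≤ 18 := by
      rw [← hα, ← Nat.card_eq_fintype_card, ← Set.ncard_univ]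
      exact Set.ncard_le_ncard (Set.subset_univ _) (Set.toFinite _)
    rw [Nat.card_coe_set_eq, Nat.card_eq_fintype_card, hα] at hmodE
    unfold Nat.ModEq at hmodE
    have h18' : (MulAction.fixedPoints (Subgroup.zpowers y) α).ncard = 18 := by omega
    have huniv : MulAction.fixedPoints (Subgroup.zpowers y) α = Set.univ := by
      apply Set.eq_of_subset_of_ncard_le (Set.subset_univ _)
      rw [Set.ncard_univ, Nat.card_eq_fintype_card, hα, h18']
    have hy1 : y = 1 := by
      apply hfaith
      intro b
      exact hya b (by rw [huniv]; exact Set.mem_univ b)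
    rw [hy1, orderOf_one] at hy17
    omega
  -- (b) no subgroup of order 4 centralizes `x`
  have h4 : ¬ 4 ∣ Nat.card (Subgroup.centralizer ((Subgroup.zpowers x : Subgroup H) : Set H)) := by
    intro h
    obtain ⟨T, hT⟩ := Sylow.exists_subgroup_card_pow_prime 2 (n := 2)
      (G := ↥(Subgroup.centralizer ((Subgroup.zpowers x : Subgroup H) : Set H))) (by simpa using h)
    have hτx : ∀ t : T, ((t : ↥(Subgroup.centralizer ((Subgroup.zpowers x : Subgroup H) : Set H))) : H) * x =
        x * ((t : ↥(Subgroup.centralizer ((Subgroup.zpowers x : Subgroup H) : Set H))) : H) :=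
      fun t => hcx _ (t : ↥(Subgroup.centralizer ((Subgroup.zpowers x : Subgroup H) : Set H))).2
    have hτ4 : ∀ t : T,
        ((t : ↥(Subgroup.centralizer ((Subgroup.zpowers x : Subgroup H) : Set H))) : H) ^ 4 = 1 := by
      intro t
      have h1 : t ^ 4 = 1 := by
        have h0 := pow_card_eq_one' (G := T) (x := t)
        rw [hT] at h0
        exact h0
      have h2 : (((t ^ 4 : T) : ↥(Subgroup.centralizer ((Subgroup.zpowers x : Subgroup H) : Set H))) : H) = 1 := by
        rw [h1]; rfl
      simpa using h2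
    obtain ⟨a⟩ : Nonempty α := Fintype.card_pos_iff.mp (by omega)
    have hcl1 : ∃ t : T, t ≠ 1 ∧
        ((t : ↥(Subgroup.centralizer ((Subgroup.zpowers x : Subgroup H) : Set H))) : H) • a = a := by
      by_contra hcon
      push Not at hcon
      letI : Fintype T := Fintype.ofFinite T
      have hb := orbit_bound hα H x hx9 hsemi
        (fun t : T => ((t : ↥(Subgroup.centralizer ((Subgroup.zpowers x : Subgroup H) : Set H))) : H) • a) ?_
      · rw [← Nat.card_eq_fintype_card, hT] at hb
        norm_num at hb
      · intro t t' htt' m hm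
        have hm' : (x ^ m) • (((t' : ↥(Subgroup.centralizer ((Subgroup.zpowers x : Subgroup H) : Set H))) : H) • a) =
            ((t : ↥(Subgroup.centralizer ((Subgroup.zpowers x : Subgroup H) : Set H))) : H) • a := hm
        have hc' : ((t' : ↥(Subgroup.centralizer ((Subgroup.zpowers x : Subgroup H) : Set H))) : H) * x ^ m =
            x ^ m * ((t' : ↥(Subgroup.centralizer ((Subgroup.zpowers x : Subgroup H) : Set H))) : H) :=
          (Commute.pow_right (show Commute _ x from hτx t') m).eq
        have hs : (((t'⁻¹ * t : T) : ↥(Subgroup.centralizer ((Subgroup.zpowers x : Subgroup H) : Set H))) : H) • a =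
            (x ^ m) • a := by
          have e1 : (((t'⁻¹ * t : T) : ↥(Subgroup.centralizer ((Subgroup.zpowers x : Subgroup H) : Set H))) : H) =
              (((t' : ↥(Subgroup.centralizer ((Subgroup.zpowers x : Subgroup H) : Set H))) : H))⁻¹ *
                ((t : ↥(Subgroup.centralizer ((Subgroup.zpowers x : Subgroup H) : Set H))) : H) := by
            simp
          rw [e1, mul_smul, ← hm', smul_smul, smul_smul, mul_assoc, ← hc', inv_mul_cancel_left]
        have hfix := hA _ (hτx _) (hτ4 _) a m hs
        exact hcon (t'⁻¹ * t) (fun h1 => htt' (inv_mul_eq_one.mp h1).symm) hfix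
    obtain ⟨t, ht1, hta⟩ := hcl1
    have hs1 : ((t : ↥(Subgroup.centralizer ((Subgroup.zpowers x : Subgroup H) : Set H))) : H) ≠ 1 := by
      intro h1
      apply ht1
      apply Subtype.ext
      apply Subtype.ext
      exact h1
    have hsx := hτx t
    have hs4 := hτ4 t
    generalize ((t : ↥(Subgroup.centralizer ((Subgroup.zpowers x : Subgroup H) : Set H))) : H) = s
      at hta hs1 hsx hs4
    obtain ⟨b, hb⟩ : ∃ b : α, s • b ≠ b := by
      by_contra hcon
      push Not at hcon
      exact hs1 (hfaith s hcon)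
    have hcomm : ∀ n : ℕ, s * x ^ n = x ^ n * s := fun n =>
      (Commute.pow_right (show Commute s x from hsx) n).eq
    have hfa : ∀ m : ℕ, s • ((x ^ m) • a) = (x ^ m) • a := by
      intro m
      rw [smul_smul, hcomm, ← smul_smul, hta]
    have hback : ∀ (m : ℕ) (p q : α), (x ^ m) • p = q → (x ^ (8 * m)) • q = p := by
      intro m p q h
      rw [← h, smul_smul, ← pow_add]
      have e : 8 * m + m = 9 * m := by ring
      rw [e, pow_mul, hx9, one_pow, one_smul]
    have hab : ∀ m : ℕ, (x ^ m) • a ≠ b := by
      intro m h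
      apply hb
      rw [← h]
      exact hfa m
    have hba : ∀ m : ℕ, (x ^ m) • b ≠ a := fun m h => hab _ (hback m b a h)
    have hsb_a : ∀ m : ℕ, (x ^ m) • a ≠ s • b := by
      intro m h
      rw [← hfa m] at h
      exact hab m (smul_left_cancel s h)
    have ha_sb : ∀ m : ℕ, (x ^ m) • (s • b) ≠ a := fun m h => hsb_a _ (hback m _ a h)
    have hb_sb : ∀ m : ℕ, (x ^ m) • b ≠ s • b := fun m h => hb (hA s hsx hs4 b m h.symm)
    have hsb_b : ∀ m : ℕ, (x ^ m) • (s • b) ≠ b := fun m h => hb_sb _ (hback m _ b h)
    have hb3 := orbit_bound hα H x hx9 hsemi (ι := Fin 3) ![a, b, s • b] ?_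
    · simp at hb3
    · intro i j hij m
      fin_cases i <;> fin_cases j
      · exact absurd rfl hij
      · exact hba m
      · exact ha_sb m
      · exact hab m
      · exact absurd rfl hij
      · exact hsb_b m
      · exact hsb_a m
      · exact hb_sb m
      · exact absurd rfl hij
  -- arithmetic
  have hn4 : ∀ n : ℕ, n ∣ 136 → n ≡ 1 [MOD 3] → n = 1 ∨ n = 4 ∨ n = 34 ∨ n = 136 := by
    intro n h1 h2
    have hle : n ≤ 136 := Nat.le_of_dvd (by norm_num) h1
    unfold Nat.ModEq at h2
    interval_cases n <;> omega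
  have hr6 : ∀ r : ℕ, r ∣ 6 → r = 1 ∨ r = 2 ∨ r = 3 ∨ r = 6 := by
    intro r h1
    have hle : r ≤ 6 := Nat.le_of_dvd (by norm_num) h1
    interval_cases r <;> omega
  have hn' := hn4 _ hdvd hmod
  have hr' := hr6 _ hrel
  rw [← hNC, hH] at hn
  generalize Nat.card (Sylow 3 H) = n at hn hn' ⊢
  generalize Nat.card (Subgroup.centralizer ((Subgroup.zpowers x : Subgroup H) : Set H)) = c at hn h17 h4
  generalize (Subgroup.centralizer ((Subgroup.zpowers x : Subgroup H) : Set H)).relIndex
      (Subgroup.normalizer ((Subgroup.zpowers x : Subgroup H) : Set H)) = r at hn hr'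
  rcases hd with rfl | rfl <;> rcases hn' with rfl | rfl | rfl | rfl <;>
    rcases hr' with rfl | rfl | rfl | rfl <;> omega

example {α : Type*} [Fintype α] [DecidableEq α] (hα : Fintype.card α = 18)
    (H : Subgroup (Equiv.Perm α)) [MulAction.IsPretransitive H α] (d : ℕ)
    (hd : d = 8 ∨ d = 16) (hH : Nat.card H = 18 * 17 * d) (x : H) (hx : orderOf x = 9)
    (hdvd : Nat.card (Sylow 3 H) ∣ 136) : Nat.card (Sylow 3 H) = 136 :=
  card_sylow_three hα H d hd hH x hx hdvd

end Cfsg.Agent.H80.SN
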