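import Mathlib
import Cfsg.Agent.Lib.Lead.SylAlt.Defs

/-!
# S2221-ORB4: an invariant set of points with big orbits under a 2-group has size divisible by 4
-/

set_option autoImplicit false

namespace Cfsg.Agent.H80.SylAlt

open Equiv Cfsg.Agent.Lib.Lead.SylAlt

variable {α : Type*} [Fintype α] [DecidableEq α]

theorem orb4 (T : Subgroup (Perm α)) (h2 : IsPGroup 2 T) : HOrb4 T := by
  classical
  intro S
  induction' hn : S.card using Nat.strong_induction_on with n ih generalizing S
  intro hinv hbig
  rcases S.eq_empty_or_nonempty with rfl | ⟨x, hx⟩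
  · rw [Finset.card_empty] at hn
    subst hn
    exact dvd_zero 4
  · set O : Finset α := Finset.univ.filter (fun y => ∃ g ∈ T, g x = y) with hO
    have hmemO : ∀ y, y ∈ O ↔ ∃ g ∈ T, g x = y := by
      intro y
      rw [hO, Finset.mem_filter]
      exact ⟨fun h => h.2, fun h => ⟨Finset.mem_univ _, h⟩⟩
    have hOS : O ⊆ S := by
      intro y hy
      obtain ⟨g, hg, rfl⟩ := (hmemO y).mp hy
      exact hinv g hg x hx
    have hxO : x ∈ O := (hmemO x).mpr ⟨1, T.one_mem, rfl⟩
    have hinv' : ∀ g ∈ T, ∀ y ∈ S \ O, g y ∈ S \ O := by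
      intro g hg y hy
      rw [Finset.mem_sdiff] at hy ⊢
      refine ⟨hinv g hg y hy.1, fun hgy => hy.2 ?_⟩
      obtain ⟨k, hk, hkx⟩ := (hmemO _).mp hgy
      refine (hmemO y).mpr ⟨g⁻¹ * k, T.mul_mem (T.inv_mem hg) hk, ?_⟩
      rw [Perm.mul_apply, hkx]
      simp
    have hbig' : ∀ y ∈ S \ O, Bigp T y := fun y hy => hbig y (Finset.mem_sdiff.mp hy).1
    have hlt : (S \ O).card < n := by
      rw [← hn]
      apply Finset.card_lt_card
      exact Finset.sdiff_ssubset hOS ⟨x, hxO⟩
    have h4 : 4 ∣ (S \ O).card := ih _ hlt (S \ O) rfl hinv' hbig'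
    have hO4 : 4 ∣ O.card := by
      obtain ⟨k, hk⟩ := h2.card_orbit x
      have hset : (O : Set α) = MulAction.orbit T x := by
        ext y
        rw [Finset.mem_coe, hmemO, MulAction.mem_orbit_iff]
        constructor
        · rintro ⟨g, hg, rfl⟩
          exact ⟨⟨g, hg⟩, rfl⟩
        · rintro ⟨g, rfl⟩
          exact ⟨g.1, g.2, rfl⟩
      have hcard : O.card = 2 ^ k := by
        rw [← hk, ← hset]
        simp
      obtain ⟨g1, hg1, hg1x, -⟩ := hbig x hx x
      obtain ⟨g2, hg2, hg2x, hg2y⟩ := hbig x hx (g1 x)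
      have h3 : 3 ≤ O.card := by
        have hsub : ({x, g1 x, g2 x} : Finset α) ⊆ O := by
          intro y hy
          simp only [Finset.mem_insert, Finset.mem_singleton] at hy
          rcases hy with rfl | rfl | rfl
          · exact hxO
          · exact (hmemO _).mpr ⟨g1, hg1, rfl⟩
          · exact (hmemO _).mpr ⟨g2, hg2, rfl⟩
        have hc3 : ({x, g1 x, g2 x} : Finset α).card = 3 := by
          rw [Finset.card_insert_of_notMem, Finset.card_insert_of_notMem, Finset.card_singleton]
          · simpa using hg2y.symm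
          · simp only [Finset.mem_insert, Finset.mem_singleton, not_or]
            exact ⟨hg1x.symm, hg2x.symm⟩
        calc 3 = ({x, g1 x, g2 x} : Finset α).card := hc3.symm
          _ ≤ O.card := Finset.card_le_card hsub
      rw [hcard] at h3 ⊢
      have hk2 : 2 ≤ k := by
        by_contra hlt
        interval_cases k <;> omega
      exact pow_dvd_pow 2 hk2
    have hcard : S.card = (S \ O).card + O.card := (Finset.card_sdiff_add_card_eq_card hOS).symm
    rw [← hn, hcard]
    exact dvd_add h4 hO4

example (T : Subgroup (Perm α)) (h2 : IsPGroup 2 T) : HOrb4 T := orb4 T h2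

end Cfsg.Agent.H80.SylAlt
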