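import Mathlib
import Cfsg.Agent.Lib.Lead.SylAlt.Defs

/-!
# S2221-TRANSP: every point moved by a Sylow 2-subgroup `T` of `Perm α` lies in a transposition
of `T`
-/

set_option autoImplicit false
set_option linter.style.haveILetI false

namespace Cfsg.Agent.H80.SylAlt

open Equiv Cfsg.Agent.Lib.Lead.SylAlt

variable {α : Type*} [Fintype α] [DecidableEq α]

/-- A subgroup generated by pairwise commuting involutions is a 2-group. -/
theorem isPGroup_closure_of_comm_invol {G : Type*} [Group G] (C : Set G)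
    (hcomm : ∀ a ∈ C, ∀ b ∈ C, a * b = b * a) (hinv : ∀ a ∈ C, a * a = 1) :
    IsPGroup 2 (Subgroup.closure C) := by
  have h1 : Subgroup.closure C ≤ Subgroup.centralizer C := by
    rw [Subgroup.closure_le]
    intro c hc
    rw [SetLike.mem_coe, Subgroup.mem_centralizer_iff]
    intro h hh
    exact hcomm h hh c hc
  have h2 : ∀ a ∈ Subgroup.closure C, ∀ b ∈ Subgroup.closure C, a * b = b * a := by
    intro a ha
    have h3 : Subgroup.closure C ≤ Subgroup.centralizer ({a} : Set G) := by
      rw [Subgroup.closure_le]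
      intro c hc
      rw [SetLike.mem_coe, Subgroup.mem_centralizer_iff]
      intro h hh
      rw [Set.mem_singleton_iff] at hh
      subst hh
      have := Subgroup.mem_centralizer_iff.mp (h1 ha) c hc
      exact this.symm
    intro b hb
    have := Subgroup.mem_centralizer_iff.mp (h3 hb) a (Set.mem_singleton a)
    exact this
  have h4 : ∀ n ∈ Subgroup.closure C, n * n = 1 := by
    intro n hn
    induction hn using Subgroup.closure_induction with
    | mem c hc => exact hinv c hc
    | one => exact mul_one 1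
    | mul a b ha hb iha ihb =>
      have hab := h2 a ha b hb
      calc a * b * (a * b) = a * (b * a) * b := by group
        _ = a * (a * b) * b := by rw [hab]
        _ = (a * a) * (b * b) := by group
        _ = 1 := by rw [iha, ihb, mul_one]
    | inv a ha iha =>
      rw [← mul_inv_rev, iha, inv_one]
  intro n
  refine ⟨1, Subtype.ext ?_⟩
  rw [pow_one, Subgroup.coe_pow, Subgroup.coe_one, pow_two]
  exact h4 n.1 n.2

theorem transp (T : Subgroup (Perm α)) (hT : IsSyl2 T) : HTr T := by
  classical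
  rintro x ⟨g0, hg0, hg0x⟩
  haveI : Fact (Nat.Prime 2) := ⟨Nat.prime_two⟩
  -- the stabilizer of `x` in `T`
  set Tx : Subgroup ↥T := (MulAction.stabilizer (Perm α) x).subgroupOf T with hTx
  have hmemTx : ∀ g : ↥T, g ∈ Tx ↔ (g : Perm α) x = x := by
    intro g
    rw [hTx, Subgroup.mem_subgroupOf, MulAction.mem_stabilizer_iff, Perm.smul_def]
  have hlt : Tx < ⊤ := by
    rw [lt_top_iff_ne_top]
    intro h
    have h1 : (⟨g0, hg0⟩ : ↥T) ∈ Tx := h ▸ Subgroup.mem_top _
    exact hg0x ((hmemTx _).mp h1)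
  haveI : Group.IsNilpotent ↥T := hT.1.isNilpotent
  have hnc := Group.normalizerCondition_of_isNilpotent (G := ↥T) Tx hlt
  obtain ⟨l0, hl0N, hl0⟩ := SetLike.exists_of_lt hnc
  have hex : ∃ k : ℕ, l0 ^ (2 ^ k) ∈ Tx := by
    obtain ⟨k, hk⟩ := hT.1 l0
    exact ⟨k, by rw [hk]; exact Tx.one_mem⟩
  have hkspec : l0 ^ (2 ^ Nat.find hex) ∈ Tx := Nat.find_spec hex
  have hk0 : Nat.find hex ≠ 0 := by
    intro h0
    rw [h0, pow_zero, pow_one] at hkspec
    exact hl0 hkspec
  obtain ⟨k', hk'⟩ := Nat.exists_eq_succ_of_ne_zero hk0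
  have hlN : l0 ^ (2 ^ k') ∈ Subgroup.normalizer (Tx : Set ↥T) := Subgroup.pow_mem _ hl0N _
  have hlnot : l0 ^ (2 ^ k') ∉ Tx := Nat.find_min hex (m := k') (by omega)
  have hl2 : l0 ^ (2 ^ k') * l0 ^ (2 ^ k') ∈ Tx := by
    have h1 : l0 ^ (2 ^ k') * l0 ^ (2 ^ k') = l0 ^ (2 ^ Nat.find hex) := by
      rw [← pow_add, hk', pow_succ, mul_two]
    rw [h1]
    exact hkspec
  obtain ⟨l, hlT, hlN', hlx, hllx⟩ : ∃ l : Perm α, l ∈ T ∧
      (∀ g ∈ T, g x = x ↔ (l * g * l⁻¹) x = x) ∧ l x ≠ x ∧ l (l x) = x := by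
    refine ⟨(l0 ^ (2 ^ k') : ↥T), (l0 ^ (2 ^ k')).2, ?_, ?_, ?_⟩
    · intro g hg
      have h1 := Subgroup.mem_normalizer_iff.mp hlN ⟨g, hg⟩
      rw [hmemTx, hmemTx] at h1
      exact h1
    · exact fun h => hlnot ((hmemTx _).mpr h)
    · exact (hmemTx _).mp hl2
  have hyx : l x ≠ x := hlx
  have hlinv : l⁻¹ x = l x := by
    rw [Perm.inv_eq_iff_eq, hllx]
  have hlinvy : l⁻¹ (l x) = x := by simp
  -- stabilizers agree
  have hstab : ∀ g ∈ T, g x = x ↔ g (l x) = l x := by
    intro g hg
    constructor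
    · intro h
      have h1 := (hlN' g hg).mp h
      rw [Perm.mul_apply, Perm.mul_apply, hlinv] at h1
      have h2 : l (g (l x)) = l (l x) := by rw [h1, hllx]
      exact l.injective h2
    · intro h
      have hk : l⁻¹ * g * l ∈ T := T.mul_mem (T.mul_mem (T.inv_mem hlT) hg) hlT
      have h1 : (l⁻¹ * g * l) x = x := by
        rw [Perm.mul_apply, Perm.mul_apply, h, hlinvy]
      have h2 := (hlN' _ hk).mp h1
      have h3 : l * (l⁻¹ * g * l) * l⁻¹ = g := by group
      rw [h3] at h2
      exact h2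
  -- block property
  have hB1 : ∀ g ∈ T, g x = l x → g (l x) = x := by
    intro g hg h
    have hk : l⁻¹ * g ∈ T := T.mul_mem (T.inv_mem hlT) hg
    have h1 : (l⁻¹ * g) x = x := by rw [Perm.mul_apply, h, hlinvy]
    have h2 := (hstab _ hk).mp h1
    rw [Perm.mul_apply, Perm.inv_eq_iff_eq, hllx] at h2
    exact h2
  have hB2 : ∀ g ∈ T, g (l x) = x → g x = l x := by
    intro g hg h
    have hk : g * l ∈ T := T.mul_mem hg hlT
    have h1 : (g * l) x = x := by rw [Perm.mul_apply, h]
    have h2 := (hstab _ hk).mp h1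
    rw [Perm.mul_apply, hllx] at h2
    exact h2
  -- the conjugates of the transposition commute
  have hcomm : ∀ g ∈ T, ∀ h ∈ T, swap (g x) (g (l x)) * swap (h x) (h (l x)) =
      swap (h x) (h (l x)) * swap (g x) (g (l x)) := by
    intro g hg h hh
    have hk : h⁻¹ * g ∈ T := T.mul_mem (T.inv_mem hh) hg
    have e1 : ∀ z, (h⁻¹ * g) z = x ↔ g z = h x := by
      intro z
      rw [Perm.mul_apply, Perm.inv_eq_iff_eq]
    have e2 : ∀ z, (h⁻¹ * g) z = l x ↔ g z = h (l x) := by
      intro z
      rw [Perm.mul_apply, Perm.inv_eq_iff_eq]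
    by_cases c1 : g x = h x
    · have c2 : g (l x) = h (l x) := by
        have h1 := (hstab _ hk).mp ((e1 x).mpr c1)
        exact (e2 (l x)).mp h1
      rw [c1, c2]
    · by_cases c3 : g x = h (l x)
      · have c4 : g (l x) = h x := by
          have h1 := hB1 _ hk ((e2 x).mpr c3)
          exact (e1 (l x)).mp h1
        rw [c3, c4, swap_comm (h (l x)) (h x)]
      · have c5 : g (l x) ≠ h (l x) := by
          intro h1
          have h2 := (hstab _ hk).mpr ((e2 (l x)).mpr h1)
          exact c1 ((e1 x).mp h2)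
        have c6 : g (l x) ≠ h x := by
          intro h1
          have h2 := hB2 _ hk ((e1 (l x)).mpr h1)
          exact c3 ((e2 x).mp h2)
        have c7 : g x ≠ g (l x) := fun h1 => hyx (g.injective h1).symm
        have c8 : h x ≠ h (l x) := fun h1 => hyx (h.injective h1).symm
        have hd : Perm.Disjoint (swap (g x) (g (l x))) (swap (h x) (h (l x))) := by
          apply Perm.disjoint_swap_swap
          simp only [List.nodup_cons, List.mem_cons, List.not_mem_nil, or_false, not_or,
            List.nodup_nil, and_true, not_false_eq_true]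
          exact ⟨⟨c7, c1, c3⟩, ⟨c6, c5⟩, c8⟩
        exact hd.commute.eq
  -- the subgroup generated by the conjugates
  set C : Set (Perm α) := {s | ∃ g ∈ T, s = swap (g x) (g (l x))} with hC
  have hN2 : IsPGroup 2 (Subgroup.closure C) := by
    apply isPGroup_closure_of_comm_invol
    · rintro a ⟨g, hg, rfl⟩ b ⟨h, hh, rfl⟩
      exact hcomm g hg h hh
    · rintro a ⟨g, hg, rfl⟩
      exact swap_mul_self _ _
  have hconj : ∀ g ∈ T, ∀ n ∈ Subgroup.closure C, g * n * g⁻¹ ∈ Subgroup.closure C := by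
    intro g hg n hn
    induction hn using Subgroup.closure_induction with
    | mem c hc =>
      obtain ⟨h, hh, rfl⟩ := hc
      apply Subgroup.subset_closure
      refine ⟨g * h, T.mul_mem hg hh, ?_⟩
      rw [← swap_apply_apply]
      rfl
    | one =>
      rw [mul_one, mul_inv_cancel]
      exact Subgroup.one_mem _
    | mul a b ha hb iha ihb =>
      have h1 : g * (a * b) * g⁻¹ = (g * a * g⁻¹) * (g * b * g⁻¹) := by group
      rw [h1]
      exact Subgroup.mul_mem _ iha ihb
    | inv a ha iha =>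
      have h1 : g * a⁻¹ * g⁻¹ = (g * a * g⁻¹)⁻¹ := by group
      rw [h1]
      exact Subgroup.inv_mem _ iha
  have hTN : T ≤ Subgroup.normalizer (Subgroup.closure C : Set (Perm α)) := by
    intro g hg
    rw [Subgroup.mem_normalizer_iff]
    intro n
    constructor
    · exact hconj g hg n
    · intro h
      have h1 := hconj g⁻¹ (T.inv_mem hg) _ h
      have h2 : g⁻¹ * (g * n * g⁻¹) * g⁻¹⁻¹ = n := by group
      rw [h2] at h1
      exact h1
  have hQ : IsPGroup 2 (T ⊔ Subgroup.closure C : Subgroup (Perm α)) :=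
    IsPGroup.to_sup_of_normal_right' hT.1 hN2 hTN
  have hQT : T ⊔ Subgroup.closure C = T := hT.2 _ hQ le_sup_left
  have hNT : Subgroup.closure C ≤ T := by
    rw [← hQT]
    exact le_sup_right
  refine ⟨l x, hyx, hNT (Subgroup.subset_closure ⟨1, T.one_mem, ?_⟩)⟩
  rfl

example (T : Subgroup (Perm α)) (hT : IsSyl2 T) : HTr T := transp T hT

end Cfsg.Agent.H80.SylAlt
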