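import Mathlib
import Cfsg.Agent.H18.DkS
import Cfsg.Agent.H72.ZasDefs

/-!
# S0690-DKS: Dickson for subgroups of `SL₂(F)` without unipotent-type elements

Team piece for helper72: `Cfsg.Agent.H80.Zas.stDks : StDks`.
`dks_dih` and `dks_semi` repeat the proofs of helper18's `dk_dih` and `dk_semi` with the sharper
conclusion (cyclic, dihedral, `A₄`, `S₄` or `A₅`) that these proofs actually give.
-/

set_option autoImplicit false
set_option linter.unusedSectionVars false
set_option linter.unusedVariables false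
set_option linter.deprecated false
set_option linter.unusedSimpArgs false
set_option linter.style.haveILetI false

namespace Cfsg.Agent.H80.Zas

open Matrix Cfsg.Agent.H65.SL2 Cfsg.Agent.H29.Dk Cfsg.Agent.H18.Dk
open Cfsg.Agent.H72.Zas

universe u

section

variable {F : Type u} [Field F] [Fintype F] (L : Subgroup (Matrix.SpecialLinearGroup (Fin 2) F))

theorem dks_dih (hZL : (Ze : Subgroup _) ≤ L)
    {x : Matrix.SpecialLinearGroup (Fin 2) F} (hx : x ∈ L) (htr : tr x ^ 2 ≠ 4)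
    (hN : L ≤ Nb L x) {τ : Matrix.SpecialLinearGroup (Fin 2) F} (hτ : τ ∈ L)
    (hτC : τ ∉ Cen L x) : ∃ k : ℕ, Nonempty (↥(L.map (mkP F)) ≃* DihedralGroup k) := by
  have hCle : Cen L x ≤ Subgroup.centralizer
      ({x} : Set (Matrix.SpecialLinearGroup (Fin 2) F)) := inf_le_right
  have hCL : Cen L x ≤ L := inf_le_left
  have hZC : (Ze : Subgroup _) ≤ Cen L x := fun ζ hζ =>
    mem_Cen.2 ⟨hZL hζ, (Ze_comm hζ x).symm⟩
  have hcycC : IsCyclic ↥(Cen L x) := isCyclic_of_le_cen htr hCle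
  obtain ⟨⟨ρ, hρC⟩, hgen⟩ := IsCyclic.exists_generator (α := ↥(Cen L x))
  have hCeq : Cen L x = Subgroup.zpowers ρ := by
    apply le_antisymm
    · intro c hc
      obtain ⟨n, hn⟩ := Subgroup.mem_zpowers_iff.1 (hgen ⟨c, hc⟩)
      have := congrArg Subtype.val hn
      simp only [Subgroup.coe_zpow] at this
      rw [← this]
      exact Subgroup.zpow_mem_zpowers ρ n
    · rw [Subgroup.zpowers_le]; exact hρC
  have hcardC := card_map_mkP hZC
  have hcardL := card_map_mkP hZL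
  have hzpos : 0 < Nat.card (Ze : Subgroup (Matrix.SpecialLinearGroup (Fin 2) F)) := Nat.card_pos
  have hNL : Nb L x = L := le_antisymm inf_le_left hN
  have hcard2 : Nat.card L = 2 * Nat.card (Cen L x) := by
    rcases nb_card' L hx htr with h | h
    · exfalso
      apply hτC
      rw [hNL] at h
      have := Subgroup.eq_of_le_of_card_ge hCL h.le
      rw [this]; exact hτ
    · rw [hNL] at h; exact h
  have hcard : Nat.card ↥(L.map (mkP F)) = 2 * Nat.card ↥((Cen L x).map (mkP F)) := by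
    rw [hcardC, hcardL] at hcard2
    have : Nat.card (Ze : Subgroup (Matrix.SpecialLinearGroup (Fin 2) F)) *
        Nat.card ↥(L.map (mkP F)) = Nat.card (Ze : Subgroup (Matrix.SpecialLinearGroup (Fin 2) F)) *
        (2 * Nat.card ↥((Cen L x).map (mkP F))) := by rw [hcard2]; ring
    exact Nat.eq_of_mul_eq_mul_left hzpos this
  have hne : NeZero (Nat.card ↥((Cen L x).map (mkP F))) := ⟨Nat.card_pos.ne'⟩
  have hρL : ρ ∈ L := hCL hρC
  have hord : orderOf (⟨mkP F ρ, Subgroup.mem_map_of_mem _ hρL⟩ : ↥(L.map (mkP F))) =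
      Nat.card ↥((Cen L x).map (mkP F)) := by
    rw [Subgroup.orderOf_mk, ← Nat.card_zpowers, ← MonoidHom.map_zpowers, ← hCeq]
  have hτnot : (⟨mkP F τ, Subgroup.mem_map_of_mem _ hτ⟩ : ↥(L.map (mkP F))) ∉
      Subgroup.zpowers (⟨mkP F ρ, Subgroup.mem_map_of_mem _ hρL⟩ : ↥(L.map (mkP F))) := by
    intro h
    obtain ⟨n, hn⟩ := Subgroup.mem_zpowers_iff.1 h
    have h1 := congrArg Subtype.val hn
    simp only [Subgroup.coe_zpow] at h1
    rw [← map_zpow] at h1
    have h2 := mkP_eq_iff.1 h1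
    apply hτC
    have h3 : τ = ρ ^ n * ((ρ ^ n)⁻¹ * τ) := by group
    rw [h3]
    exact (Cen L x).mul_mem ((Cen L x).zpow_mem hρC n) (hZC h2)
  have hτ2 : (⟨mkP F τ, Subgroup.mem_map_of_mem _ hτ⟩ : ↥(L.map (mkP F))) *
      ⟨mkP F τ, Subgroup.mem_map_of_mem _ hτ⟩ = 1 := by
    apply Subtype.ext
    simp only [Subgroup.coe_mul, Subgroup.coe_one]
    rw [← map_mul]
    exact mkP_eq_one_iff.2 (nb_sq L hx htr (hN hτ) hτC)
  have hconj : (⟨mkP F τ, Subgroup.mem_map_of_mem _ hτ⟩ : ↥(L.map (mkP F))) *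
      ⟨mkP F ρ, Subgroup.mem_map_of_mem _ hρL⟩ *
      (⟨mkP F τ, Subgroup.mem_map_of_mem _ hτ⟩ : ↥(L.map (mkP F)))⁻¹ =
      (⟨mkP F ρ, Subgroup.mem_map_of_mem _ hρL⟩ : ↥(L.map (mkP F)))⁻¹ := by
    apply Subtype.ext
    simp only [Subgroup.coe_mul, Subgroup.coe_inv]
    rw [← map_inv, ← map_mul, ← map_mul, ← map_inv]
    exact congrArg (mkP F) (nb_inv_all L hx htr (hN hτ) hτC hρC)
  exact ⟨Nat.card ↥((Cen L x).map (mkP F)),
    Cfsg.Agent.H3.dihedral_of_gens _ hcard _ _ hord hτnot hτ2 hconj⟩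

theorem dks_semi (hZL : (Ze : Subgroup _) ≤ L)
    (hss : ∀ x ∈ L, x ∉ (Ze : Subgroup _) → tr x ^ 2 ≠ 4) : Small5 ↥(L.map (mkP F)) := by
  classical
  obtain ⟨T, hT1, hT2, hT3, hT4⟩ := class_sum L Ze hZc_Ze hCA_Ze
  have hzpos : 0 < Nat.card (Ze : Subgroup (Matrix.SpecialLinearGroup (Fin 2) F)) := Nat.card_pos
  have hW := fun x (hx : x ∈ T) =>
    cls_weight L hZL (hT1 x hx).1 (hT1 x hx).2 (hss x (hT1 x hx).1 (hT1 x hx).2)
  have hsum := cls_sum L hZL T (fun x => hC L / (eC L x * fC L x) * (eC L x - 1))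
    (fun x hx => (hW x hx).2.2.2.2.2) hT4
  have hLcard := card_L_eq L hZL
  obtain ⟨e0⟩ := bar_equiv L
  rcases numS T (eC L) (fC L) (hC L) (hC_pos L hZL) (fun x hx => (hW x hx).1)
    (fun x hx => (hW x hx).2.1) (fun x hx => (hW x hx).2.2.1) hsum with
    ⟨hT, -⟩ | ⟨x, hxT, hf, hh⟩ | ⟨x, hxT, hf, hh⟩ | ⟨hh, x, hxT, he⟩ | ⟨hh, x, hxT, he, hf⟩ |
    ⟨hh, i, j, k, hTe, hei, hfi, hej, hfj, hek, hfk⟩
  · -- trivial
    left
    have hL : L ≤ (Ze : Subgroup _) := by
      intro y hy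
      by_contra hyZ
      obtain ⟨x, hx, -⟩ := hT3 y hy hyZ
      rw [hT] at hx
      simp at hx
    have hbot : L.map (mkP F) = ⊥ := by
      rw [eq_bot_iff]
      rintro y ⟨g, hg, rfl⟩
      rw [Subgroup.mem_bot]
      exact mkP_eq_one_iff.2 (hL hg)
    rw [hbot]
    infer_instance
  · -- cyclic
    obtain ⟨hxL, hxZ⟩ := hT1 x hxT
    have htr := hss x hxL hxZ
    obtain ⟨-, -, -, hcen, -, -⟩ := hW x hxT
    have hCL : Cen L x = L :=
      Subgroup.eq_of_le_of_card_ge inf_le_left (by rw [hcen, hLcard, hh])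
    left
    have hLc : L ≤ Subgroup.centralizer ({x} : Set (Matrix.SpecialLinearGroup (Fin 2) F)) := by
      intro g hg
      have hgC : g ∈ Cen L x := by rw [hCL]; exact hg
      exact (Subgroup.mem_inf.1 hgC).2
    have hcycL : IsCyclic ↥L := isCyclic_of_le_cen htr hLc
    exact isCyclic_of_surjective ((mkP F).subgroupMap L) ((mkP F).subgroupMap_surjective L)
  · -- dihedral
    obtain ⟨hxL, hxZ⟩ := hT1 x hxT
    have htr := hss x hxL hxZ
    obtain ⟨he2, -, -, hcen, hnb, -⟩ := hW x hxT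
    have hNL : Nb L x = L :=
      Subgroup.eq_of_le_of_card_ge inf_le_left (by rw [hnb, hLcard, hh, hf, mul_assoc, mul_comm 2])
    have hCne : ¬ (L ≤ Cen L x) := by
      intro hle
      have h1 : Nat.card L ≤ Nat.card (Cen L x) :=
        Nat.card_mono (Set.toFinite _) (fun g hg => hle hg)
      rw [hcen, hLcard, hh] at h1
      have h2 := Nat.le_of_mul_le_mul_left h1 hzpos
      omega
    obtain ⟨τ, hτ, hτC⟩ := SetLike.not_le_iff_exists.1 hCne
    right; left
    exact dks_dih L hZL hxL htr (by rw [hNL]) hτ hτC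
  · -- `h = 12`
    obtain ⟨hxL, hxZ⟩ := hT1 x hxT
    have htr := hss x hxL hxZ
    obtain ⟨he2, hf12, -, hcen, hnb, -⟩ := hW x hxT
    rw [he] at hcen hnb
    have hx2 : x * x ∉ (Ze : Subgroup _) := fun hyy =>
      sq_ne_one_of_semi htr (sq_eq_one_of_odd L hxL 3 ⟨1, rfl⟩ (by rw [hcen]; ring) hyy)
    rcases hf12 with hf | hf
    · rw [hf] at hnb
      right; right; left
      obtain ⟨e1⟩ := rec_A4 hZc_Ze hCA_Ze hZL hxL hxZ _ rfl (by rw [hcen]; ring)
        (by rw [hnb]; ring) (by rw [hLcard, hh]; ring)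
      exact ⟨e0.symm.trans e1⟩
    · exfalso
      rw [hf] at hnb
      exact idx2_contra L hxL htr hx2 (by rw [hLcard, hh, hnb]; ring)
  · -- `h = 24`
    obtain ⟨hxL, hxZ⟩ := hT1 x hxT
    have htr := hss x hxL hxZ
    obtain ⟨he2, hf12, -, hcen, hnb, -⟩ := hW x hxT
    rw [he] at hcen hnb
    rw [hf] at hnb
    have hx2 : x * x ∉ (Ze : Subgroup _) := fun hyy =>
      sq_ne_one_of_semi htr (sq_eq_one_of_odd L hxL 3 ⟨1, rfl⟩ (by rw [hcen]; ring) hyy)
    right; right; right; left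
    obtain ⟨e1⟩ := rec_S4 hZc_Ze hCA_Ze hZL hxL hxZ _ rfl (by rw [hcen]; ring)
      (by rw [hnb]; ring) (by rw [hLcard, hh]; ring)
      (fun g hg hgC => nb_inv L hxL htr hg hgC) hx2
    exact ⟨e0.symm.trans e1⟩
  · -- `h = 60`
    have hiT : i ∈ T := by rw [hTe]; simp
    have hjT : j ∈ T := by rw [hTe]; simp
    have hkT : k ∈ T := by rw [hTe]; simp
    obtain ⟨hiL, hiZ⟩ := hT1 i hiT
    have htri := hss i hiL hiZ
    obtain ⟨-, -, -, hceni, hnbi, -⟩ := hW i hiT
    obtain ⟨-, -, -, hcenj, hnbj, -⟩ := hW j hjT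
    obtain ⟨-, -, -, hcenk, hnbk, -⟩ := hW k hkT
    rw [hei] at hceni hnbi
    rw [hfi] at hnbi
    rw [hej] at hcenj hnbj
    rw [hfj] at hnbj
    rw [hek] at hcenk hnbk
    rw [hfk] at hnbk
    have hcls : ∀ y ∈ L, y ∉ (Ze : Subgroup _) →
        (Nat.card (Cen L y) = 2 * Nat.card (Ze : Subgroup (Matrix.SpecialLinearGroup (Fin 2) F)) ∧
          Nat.card (Nb L y) = 4 * Nat.card (Ze : Subgroup (Matrix.SpecialLinearGroup (Fin 2) F))) ∨
        (Nat.card (Cen L y) = 3 * Nat.card (Ze : Subgroup (Matrix.SpecialLinearGroup (Fin 2) F)) ∧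
          Nat.card (Nb L y) = 6 * Nat.card (Ze : Subgroup (Matrix.SpecialLinearGroup (Fin 2) F))) ∨
        (Nat.card (Cen L y) = 5 * Nat.card (Ze : Subgroup (Matrix.SpecialLinearGroup (Fin 2) F)) ∧
          Nat.card (Nb L y) = 10 * Nat.card (Ze : Subgroup (Matrix.SpecialLinearGroup (Fin 2) F))) := by
      intro y hy hyZ
      obtain ⟨t, ht, hyt⟩ := hT3 y hy hyZ
      have hc := card_of_mem_ob hZc_Ze hCA_Ze (hT1 t ht).2 hyt
      rw [hTe] at ht
      simp only [Finset.mem_insert, Finset.mem_singleton] at ht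
      rcases ht with h | h | h
      · rw [h] at hc
        left; exact ⟨by rw [hc.1, hceni]; ring, by rw [hc.2, hnbi]; ring⟩
      · rw [h] at hc
        right; left; exact ⟨by rw [hc.1, hcenj]; ring, by rw [hc.2, hnbj]; ring⟩
      · rw [h] at hc
        right; right; exact ⟨by rw [hc.1, hcenk]; ring, by rw [hc.2, hnbk]; ring⟩
    have hsq : ∀ v ∈ Nb L i, v * v ∈ (Ze : Subgroup _) := by
      intro v hv
      by_cases hvC : v ∈ Cen L i
      · have hidx := index_subgroupOf (Cen L i) Ze (Ze_le_Cen L hZL i) 2 (by rw [hceni]; ring)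
        have h1 := Subgroup.mul_self_mem_of_index_two hidx ⟨v, hvC⟩
        rw [Subgroup.mem_subgroupOf] at h1
        simpa using h1
      · exact nb_sq L hiL htri hv hvC
    have hinvol : ∀ y ∈ L, y ∉ (Ze : Subgroup _) → y * y ∈ (Ze : Subgroup _) →
        y ∈ Ob L Ze i := by
      intro y hy hyZ hyy
      obtain ⟨t, ht, hyt⟩ := hT3 y hy hyZ
      have hc := card_of_mem_ob hZc_Ze hCA_Ze (hT1 t ht).2 hyt
      have htry := hss y hy hyZ
      rw [hTe] at ht
      simp only [Finset.mem_insert, Finset.mem_singleton] at ht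
      rcases ht with h | h | h
      · rw [h] at hyt; exact hyt
      · rw [h] at hc
        exact absurd (sq_eq_one_of_odd L hy 3 ⟨1, rfl⟩ (by rw [hc.1, hcenj]; ring) hyy)
          (sq_ne_one_of_semi htry)
      · rw [h] at hc
        exact absurd (sq_eq_one_of_odd L hy 5 ⟨2, rfl⟩ (by rw [hc.1, hcenk]; ring) hyy)
          (sq_ne_one_of_semi htry)
    right; right; right; right
    obtain ⟨e1⟩ := rec_A5 hZc_Ze hCA_Ze hZL _ rfl (by rw [hLcard, hh]; ring) hcls hiL hiZ
      (by rw [hceni]; ring) (by rw [hnbi]; ring) hsq hinvol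
    exact ⟨e0.symm.trans e1⟩

end

/-- `S0690-DKS`. -/
theorem stDks : StDks.{u} := by
  intro F _ _ L hneg hss
  classical
  letI : Fintype F := Fintype.ofFinite F
  have hZL : (Ze : Subgroup (Matrix.SpecialLinearGroup (Fin 2) F)) ≤ L := by
    intro g hg
    rcases mem_Ze_iff.1 hg with rfl | rfl
    · exact L.one_mem
    · obtain ⟨g0, hg0, hg0'⟩ := hneg
      have h0 : g0 = -1 := by
        apply Subtype.ext
        rw [hg0']
        simp
      rw [← h0]
      exact hg0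
  have hss' : ∀ x ∈ L, x ∉ (Ze : Subgroup (Matrix.SpecialLinearGroup (Fin 2) F)) →
      tr x ^ 2 ≠ 4 := by
    intro x hx hxZ
    have h1 : (x : Matrix (Fin 2) (Fin 2) F) ≠ 1 := fun h =>
      hxZ (mem_Ze_iff.2 (Or.inl (Subtype.ext (by rw [h]; rfl))))
    have h2 : (x : Matrix (Fin 2) (Fin 2) F) ≠ -1 := fun h =>
      hxZ (mem_Ze_iff.2 (Or.inr (Subtype.ext (by rw [h]; simp))))
    have h3 := hss x hx h1 h2
    rw [Matrix.trace_fin_two] at h3
    exact h3
  refine ⟨↥(L.map (mkP F)), inferInstance, (mkP F).subgroupMap L,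
    (mkP F).subgroupMap_surjective L, ?_, dks_semi L hZL hss'⟩
  intro g
  have h1 : (mkP F).subgroupMap L g = 1 ↔
      mkP F (g : Matrix.SpecialLinearGroup (Fin 2) F) = 1 := by
    constructor
    · intro h
      have h0 := congrArg Subtype.val h
      simpa using h0
    · intro h
      apply Subtype.ext
      simpa using h
  rw [h1, mkP_eq_one_iff, mem_Ze_iff]
  constructor
  · rintro (h | h)
    · left; rw [h]; rfl
    · right; rw [h]; simp
  · rintro (h | h)
    · left; apply Subtype.ext; rw [h]; rfl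
    · right; apply Subtype.ext; rw [h]; simp

/-- The piece, with its exact type. -/
example : StDks.{u} := stDks

end Cfsg.Agent.H80.Zas
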