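import Mathlib
import Cfsg.Agent.H72.ZasDefs

/-!
# S0690-SL2: EMB + DKS

Team piece for helper72: `Cfsg.Agent.H80.Zas.stSl2 : StEmb → StDks → StSl2`.
-/

set_option autoImplicit false
set_option linter.unusedVariables false

namespace Cfsg.Agent.H80.Zas

open Cfsg.Agent.H72.Zas

universe u

/-- For `A ∈ SL₂`: `det (A - 1) = 2 - tr A`. -/
theorem det_sub_one {F : Type u} [Field F] (A : Matrix (Fin 2) (Fin 2) F) (hA : A.det = 1) :
    (A - 1).det = 2 - A.trace := by
  rw [Matrix.det_fin_two] at hA ⊢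
  rw [Matrix.trace_fin_two]
  simp only [Matrix.sub_apply, Matrix.one_apply_eq, Matrix.one_apply_ne, ne_eq, Fin.zero_eq_one_iff,
    Fin.one_eq_zero_iff, OfNat.ofNat_ne_one, not_false_eq_true, sub_zero]
  linear_combination hA

/-- For `A ∈ SL₂`: `det (-A - 1) = 2 + tr A`. -/
theorem det_neg_sub_one {F : Type u} [Field F] (A : Matrix (Fin 2) (Fin 2) F) (hA : A.det = 1) :
    (-A - 1).det = 2 + A.trace := by
  rw [Matrix.det_fin_two] at hA ⊢
  rw [Matrix.trace_fin_two]
  simp only [Matrix.sub_apply, Matrix.neg_apply, Matrix.one_apply_eq, Matrix.one_apply_ne, ne_eq,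
    Fin.zero_eq_one_iff, Fin.one_eq_zero_iff, OfNat.ofNat_ne_one, not_false_eq_true, sub_zero]
  linear_combination hA

/-- `S0690-SL2`. -/
theorem stSl2 (h1 : StEmb.{u}) (h2 : StDks.{u}) : StSl2.{u} := by
  intro G _ _ E _ _ _ R t s ht hs hst h2u B hBc hBt hBs X hX hneg
  obtain ⟨F, iF, iFin, φ, hφ1, hφ2⟩ := h1 G E R t s ht hs hst h2u B hBc hBt hBs X hX
  obtain ⟨z0, hz0, hz0'⟩ := hneg
  obtain ⟨z, hz⟩ : ∃ z : ↥(Subgroup.closure X), (z : G) = z0 := ⟨⟨z0, hz0⟩, rfl⟩
  have hιz : R.ι (z : G) = -1 := by rw [hz]; exact hz0'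
  have hφz : (φ z : Matrix (Fin 2) (Fin 2) F) = -1 := hφ2 z hιz
  -- `φ g = 1` forces `g = 1`
  have hone : ∀ g : ↥(Subgroup.closure X), (φ g : Matrix (Fin 2) (Fin 2) F) = 1 → g = 1 := by
    intro g hg
    by_contra hg1
    apply hφ1 g hg1
    rw [hg, sub_self, Matrix.det_zero]
  have hφzg : ∀ g : ↥(Subgroup.closure X),
      (φ (z * g) : Matrix (Fin 2) (Fin 2) F) = -(φ g : Matrix (Fin 2) (Fin 2) F) := by
    intro g
    rw [map_mul, Matrix.SpecialLinearGroup.coe_mul, hφz, neg_one_mul]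
  have hL1 : ∃ g ∈ φ.range, (g : Matrix (Fin 2) (Fin 2) F) = -1 := ⟨φ z, ⟨z, rfl⟩, hφz⟩
  have hL2 : ∀ g ∈ φ.range, (g : Matrix (Fin 2) (Fin 2) F) ≠ 1 →
      (g : Matrix (Fin 2) (Fin 2) F) ≠ -1 →
      (Matrix.trace (g : Matrix (Fin 2) (Fin 2) F)) ^ 2 ≠ 4 := by
    rintro _ ⟨g, rfl⟩ hne1 hneg1
    have hg1 : g ≠ 1 := by
      rintro rfl
      apply hne1
      rw [map_one]
      rfl
    have hzg1 : z * g ≠ 1 := by
      intro h
      apply hneg1
      have h3 := hφzg g
      rw [h, map_one, Matrix.SpecialLinearGroup.coe_one] at h3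
      rw [h3, neg_neg]
    have hd1 := hφ1 g hg1
    have hd2 := hφ1 (z * g) hzg1
    have hA : (φ g : Matrix (Fin 2) (Fin 2) F).det = 1 := (φ g).2
    rw [det_sub_one _ hA] at hd1
    rw [hφzg, det_neg_sub_one _ hA] at hd2
    intro htr
    apply mul_ne_zero hd1 hd2
    linear_combination -htr
  obtain ⟨Q, iQ, π', hπs, hπk, hsm⟩ := h2 F φ.range hL1 hL2
  refine ⟨Q, iQ, π'.comp φ.rangeRestrict, ?_, ?_, hsm⟩
  · exact hπs.comp φ.rangeRestrict_surjective
  · intro g
    rw [MonoidHom.comp_apply, hπk]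
    have hc : ((φ.rangeRestrict g : ↥φ.range) : Matrix.SpecialLinearGroup (Fin 2) F) = φ g := rfl
    rw [hc]
    constructor
    · rintro (h | h)
      · left
        rw [hone g h]
        simp
      · right
        have h3 := hφzg g
        rw [h, neg_neg] at h3
        have h4 := hone (z * g) h3
        have h5 : R.ι (z : G) * R.ι (g : G) = 1 := by
          rw [← map_mul, ← Subgroup.coe_mul, h4]
          simp
        rw [hιz, neg_one_mul] at h5
        rw [← h5, neg_neg]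
    · rintro (h | h)
      · left
        have h3 : (g : G) = 1 := R.inj (by rw [h, map_one])
        have h4 : g = 1 := Subtype.ext h3
        rw [h4, map_one]
        rfl
      · right
        exact hφ2 g h

/-- The piece, with its exact type. -/
example : StEmb.{u} → StDks.{u} → StSl2.{u} := stSl2

end Cfsg.Agent.H80.Zas
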